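import Cfsg.Agent.H995.LB.ChkDef

/-!
# `PSL(2, 23)` in the Baby Monster: kernel checks of relations (helper995, for S5524)
-/

set_option autoImplicit false
set_option Elab.async false

namespace Cfsg.Agent.H995.LB

open Cfsg.Agent.Monster.VecEngine Cfsg.Agent.BabyM.Conc Cfsg.Agent.BabyM.WordsInst

theorem a_xxi : eqc (wx ++ wxi) [] = true := by decide +kernel

theorem a_x23 : eqc (wx ++ wx ++ wx ++ wx ++ wx ++ wx ++ wx ++ wx ++ wx ++ wx ++ wx ++ wx ++ wx ++ wx ++ wx ++
    wx ++ wx ++ wx ++ wx ++ wx ++ wx ++ wx ++ wx) [] = true := by decide +kernel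

theorem a_px : eqc ([.p10] ++ wx ++ [.p]) (wx ++ wx ++ wx ++ wx ++ wx ++ wx ++ wx ++ wx ++ wx ++ wx ++ wx ++
    wx ++ wx ++ wx ++ wx ++ wx) = true := by decide +kernel

theorem a_dd : eqc (wd ++ wd) [] = true := by decide +kernel

theorem a_dpd : eqc (wd ++ [.p] ++ wd) [.p10] = true := by decide +kernel

theorem a_xt : eqc ((sw (Sw 25) ++ wd ++ wx) ++ (sw (Sw 25) ++ wd ++ wx) ++ (sw (Sw 25) ++ wd ++ wx)) [] = true := by
  decide +kernel

theorem a_px0 : eqc ([.p] ++ [.X10]) ([.X10] ++ [.p]) = true := by decide +kernel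
theorem a_pz0 : eqc ([.p] ++ [.Z10]) ([.Z10] ++ [.p]) = true := by decide +kernel
theorem a_pt : eqc ([.p] ++ [.tau]) ([.tau] ++ [.p]) = true := by decide +kernel
theorem a_pz : eqc ([.p] ++ [.z]) ([.z] ++ [.p]) = true := by decide +kernel
theorem a_pT : eqc ([.p] ++ wT) (wT ++ [.p]) = true := by decide +kernel

theorem a_dx0 : eqc (wd ++ [.X10]) ([.X10] ++ wd) = true := by decide +kernel
theorem a_dz0 : eqc (wd ++ [.Z10]) ([.Z10] ++ wd) = true := by decide +kernel
theorem a_dt : eqc (wd ++ [.tau]) ([.tau] ++ wd) = true := by decide +kernel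
theorem a_dz : eqc (wd ++ [.z]) ([.z] ++ wd) = true := by decide +kernel
theorem a_dT : eqc (wd ++ wT) (wT ++ wd) = true := by decide +kernel

theorem a_zx : eqc (wx ++ [.z]) ([.z] ++ wx) = true := by decide +kernel

/-- The two good elements are conjugate under `z`. -/
theorem a_good : eqc ([.z] ++ sw (Sw 25) ++ [.z]) (sw (Sw 20)) = true := by decide +kernel

/-- The good element is a square. -/
theorem a_root : eqc (sw [1, 2, 5] ++ sw [1, 2, 5]) (sw (Sw 25)) = true := by decide +kernel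

theorem a_zz : eqc ([.z] ++ [.z]) [] = true := by decide +kernel

end Cfsg.Agent.H995.LB
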