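import Cfsg.Agent.H995.LB.ChkDef

/-!
# `PSL(2, 23)` in the Baby Monster: kernel checks of the elements of square `1` (helper995, for S5524)
-/

set_option autoImplicit false
set_option Elab.async false

namespace Cfsg.Agent.H995.LB

open Cfsg.Agent.Monster.VecEngine Cfsg.Agent.BabyM.Conc Cfsg.Agent.BabyM.WordsInst

theorem b_sq : ∀ i, eqc (sw (Sw i) ++ sw (Sw i)) [] = true := by decide +kernel

theorem b_code : ∀ i, k5 (Sw i) (Sc i) = true := by decide +kernel

theorem b_inj : ∀ i j, Sc i = Sc j → i = j := by decide +kernel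

end Cfsg.Agent.H995.LB
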