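import Cfsg.Agent.H995.LB.ChkDef

/-!
# `PSL(2, 23)` in the Baby Monster: kernel checks, normaliser test (helper995, for S5524)
-/

set_option autoImplicit false
set_option Elab.async false

namespace Cfsg.Agent.H995.LB

open Cfsg.Agent.Monster.VecEngine Cfsg.Agent.BabyM.Conc Cfsg.Agent.BabyM.WordsInst

theorem d_norm : ∀ i : Fin 26, i = 0 ∨ i = 3 ∨ k7 (Sw i) (Sn i) = true := by decide +kernel

theorem d_fixg : checkFix (wx.map Ltr.prog) vg = true := by decide +kernel

theorem d_fixf : checkFix (wx.map Ltr.prog) vf = true := by decide +kernel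

theorem d_fixf' : checkFix (([.p] : List Ltr).map Ltr.prog) vf = true := by decide +kernel

end Cfsg.Agent.H995.LB
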