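import Cfsg.Agent.H995.LB.Data

/-!
# `PSL(2, 23)` in the Baby Monster: the checks (helper995, for S5524)
-/

set_option autoImplicit false

namespace Cfsg.Agent.H995.LB

open Cfsg.Agent.Monster.VecEngine Cfsg.Agent.Monster.VecSpace
open Cfsg.Agent.BabyM.Conc Cfsg.Agent.BabyM.WordsInst

/-- Two words agree on the vector of the base. -/
noncomputable def eqc (v w : List Ltr) : Bool := check (v.map Ltr.prog) vB (w.map Ltr.prog) vB

/-- The values of the image of the vector of the base. -/
noncomputable def k5 (s : List ℕ) (c : List ℤ) : Bool :=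
  runL ((sw s).map Ltr.prog) vB fun y => decide (code y = c)

/-- The main test. -/
noncomputable def k6 (s : List ℕ) (L : List (Fin 11 × ℕ)) : Bool :=
  runL ((sw s ++ wd).map Ltr.prog) vf fun w => runL (wx.map Ltr.prog) w fun u =>
    runL ((wxi ++ sw s ++ wd).map Ltr.prog) w fun v =>
      L.all fun q => and (U.testBit q.2) (runL ((pj q.1).map Ltr.prog) v fun y => !decide (val y q.2 = val u q.2))

/-- The normaliser test. -/
noncomputable def k7 (s : List ℕ) (l : ℕ) : Bool :=
  and (U.testBit l) (runL ((sw s).map Ltr.prog) vg fun a => runL (wx.map Ltr.prog) a fun b =>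
    !decide (val b l = val a l))

/-- A word moves a vector. -/
noncomputable def mv (v : List Ltr) (x : Pl) (l : ℕ) : Bool :=
  and (U.testBit l) (runL (v.map Ltr.prog) x fun a => !decide (val a l = val x l))

end Cfsg.Agent.H995.LB
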