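import Cfsg.Agent.H995.LB.ChkDef

/-!
# `PSL(2, 23)` in the Baby Monster: kernel checks, powers of `p` (helper995, for S5524)
-/

set_option autoImplicit false
set_option Elab.async false

namespace Cfsg.Agent.H995.LB

open Cfsg.Agent.Monster.VecEngine Cfsg.Agent.BabyM.Conc Cfsg.Agent.BabyM.WordsInst

theorem e_p11 : eqc (List.replicate 11 .p) [] = true := by decide +kernel

theorem e_pj : ∀ j, eqc (pj j) (List.replicate j.1 .p) = true := by decide +kernel

theorem e_taui : eqc ([.tau] ++ [.taui]) [] = true := by decide +kernel

end Cfsg.Agent.H995.LB
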