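import Cfsg.Agent.H995.LB.DataF

/-!
# `PSL(2, 23)` in `Fi23` in the Baby Monster: kernel checks, X (helper995, for S5524)
-/

set_option autoImplicit false
set_option Elab.async false

namespace Cfsg.Agent.H995.LB

open Cfsg.Agent.Monster.VecEngine Cfsg.Agent.BabyM.Conc Cfsg.Agent.BabyM.WordsInst

theorem fX_a : cj wx wxi .a (rX .a) (lX .a) = true := by decide +kernel

theorem fX_b : cj wx wxi .b (rX .b) (lX .b) = true := by decide +kernel

theorem fX_c : cj wx wxi .c (rX .c) (lX .c) = true := by decide +kernel

theorem fX_d : cj wx wxi .d (rX .d) (lX .d) = true := by decide +kernel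

theorem fX_e : cj wx wxi .e (rX .e) (lX .e) = true := by decide +kernel

theorem fX_f : cj wx wxi .f (rX .f) (lX .f) = true := by decide +kernel

theorem fX_g : cj wx wxi .g (rX .g) (lX .g) = true := by decide +kernel

theorem fX_h : cj wx wxi .h (rX .h) (lX .h) = true := by decide +kernel

theorem fX_i : cj wx wxi .i (rX .i) (lX .i) = true := by decide +kernel

theorem fX_j : cj wx wxi .j (rX .j) (lX .j) = true := by decide +kernel

end Cfsg.Agent.H995.LB
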