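import Cfsg.Agent.H995.LB.DataF

/-!
# `PSL(2, 23)` in `Fi23` in the Baby Monster: kernel checks, P (helper995, for S5524)
-/

set_option autoImplicit false
set_option Elab.async false

namespace Cfsg.Agent.H995.LB

open Cfsg.Agent.Monster.VecEngine Cfsg.Agent.BabyM.Conc Cfsg.Agent.BabyM.WordsInst

theorem fP_a : cj [.p] [.p10] .a (rP .a) (lP .a) = true := by decide +kernel

theorem fP_b : cj [.p] [.p10] .b (rP .b) (lP .b) = true := by decide +kernel

theorem fP_c : cj [.p] [.p10] .c (rP .c) (lP .c) = true := by decide +kernel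

theorem fP_d : cj [.p] [.p10] .d (rP .d) (lP .d) = true := by decide +kernel

theorem fP_e : cj [.p] [.p10] .e (rP .e) (lP .e) = true := by decide +kernel

theorem fP_f : cj [.p] [.p10] .f (rP .f) (lP .f) = true := by decide +kernel

theorem fP_g : cj [.p] [.p10] .g (rP .g) (lP .g) = true := by decide +kernel

theorem fP_h : cj [.p] [.p10] .h (rP .h) (lP .h) = true := by decide +kernel

theorem fP_i : cj [.p] [.p10] .i (rP .i) (lP .i) = true := by decide +kernel

theorem fP_j : cj [.p] [.p10] .j (rP .j) (lP .j) = true := by decide +kernel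

theorem f_gg : eqc (wg ++ wgi) [] = true := by decide +kernel

end Cfsg.Agent.H995.LB
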