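import Cfsg.Agent.H995.LB.DataF

/-!
# `PSL(2, 23)` in `Fi23` in the Baby Monster: kernel checks, T (helper995, for S5524)
-/

set_option autoImplicit false
set_option Elab.async false

namespace Cfsg.Agent.H995.LB

open Cfsg.Agent.Monster.VecEngine Cfsg.Agent.BabyM.Conc Cfsg.Agent.BabyM.WordsInst

theorem fT_a : cj (sw (Sw 25) ++ wd) (sw (Sw 25) ++ wd) .a (rT .a) (lT .a) = true := by decide +kernel

theorem fT_b : cj (sw (Sw 25) ++ wd) (sw (Sw 25) ++ wd) .b (rT .b) (lT .b) = true := by decide +kernel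

theorem fT_c : cj (sw (Sw 25) ++ wd) (sw (Sw 25) ++ wd) .c (rT .c) (lT .c) = true := by decide +kernel

theorem fT_d : cj (sw (Sw 25) ++ wd) (sw (Sw 25) ++ wd) .d (rT .d) (lT .d) = true := by decide +kernel

theorem fT_e : cj (sw (Sw 25) ++ wd) (sw (Sw 25) ++ wd) .e (rT .e) (lT .e) = true := by decide +kernel

theorem fT_f : cj (sw (Sw 25) ++ wd) (sw (Sw 25) ++ wd) .f (rT .f) (lT .f) = true := by decide +kernel

theorem fT_g : cj (sw (Sw 25) ++ wd) (sw (Sw 25) ++ wd) .g (rT .g) (lT .g) = true := by decide +kernel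

theorem fT_h : cj (sw (Sw 25) ++ wd) (sw (Sw 25) ++ wd) .h (rT .h) (lT .h) = true := by decide +kernel

theorem fT_i : cj (sw (Sw 25) ++ wd) (sw (Sw 25) ++ wd) .i (rT .i) (lT .i) = true := by decide +kernel

theorem fT_j : cj (sw (Sw 25) ++ wd) (sw (Sw 25) ++ wd) .j (rT .j) (lT .j) = true := by decide +kernel

theorem f_tt : eqc ((sw (Sw 25) ++ wd) ++ (sw (Sw 25) ++ wd)) [] = true := by decide +kernel

end Cfsg.Agent.H995.LB
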