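import Cfsg.Agent.H995.LB.ChkDef
import Cfsg.Agent.BM.StageWWords
import Cfsg.Prelude.Def_Spor_Fi23

/-!
# `PSL(2, 23)` in `Fi23` in the Baby Monster: words (helper995, for S5524)
-/

set_option autoImplicit false

namespace Cfsg.Agent.H995.LB

open Cfsg.Agent.Monster.VecEngine Cfsg.Agent.Monster.VecSpace
open Cfsg.Agent.BabyM.Conc Cfsg.Spor Cfsg.Agent.BM.StageW

/-- The words of the generators of the standard `Fi23`. -/
def fw : Fi23.Gen → List Ltr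
  | .a => tw .t11
  | .b => tw .t10
  | .c => tw .t9
  | .d => tw .t5
  | .e => tw .t4
  | .f => tw .t3
  | .g => tw .t2
  | .j => tw .t1
  | .h => tw .t6
  | .i => tw .t7

/-- A word in the generators of the standard `Fi23`. -/
def kw (l : List Fi23.Gen) : List Ltr := l.flatMap fw

/-- The word moving `PSL(2, 23)` into the standard `Fi23`. -/
def wg : List Ltr := [.z, .Z7, .Z6, .Z1, .Z0, .X9, .X7, .X5, .X2, .X0, .y2, .xii, .p2, .xii, .p4, .taui, .xii, .p10, .xii, .p10, .taui, .xii, .p, .taui, .xii, .p, .Z0, .Z2, .Z4, .Z5, .Z6, .p10, .xi, .tau, .p10, .xi, .tau, .p, .xi, .p, .xi, .tau, .p7, .xi, .p9, .xi, .y2, .X0, .X2, .X5, .X7, .X9, .Z0, .Z1, .Z6, .Z7, .y2, .xii, .p2, .xii, .p4, .y1, .X0, .X1, .X5, .X7, .X8, .X9, .X10, .Z0, .Z1, .Z6, .Z7, .Z8, .Z10, .tau, .xii, .p]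

/-- Its inverse. -/
def wgi : List Ltr := [.p10, .xi, .taui, .Z10, .Z8, .Z7, .Z6, .Z1, .Z0, .X10, .X9, .X8, .X7, .X5, .X1, .X0, .y1, .p7, .xi, .p9, .xi, .y2, .Z7, .Z6, .Z1, .Z0, .X9, .X7, .X5, .X2, .X0, .y2, .xii, .p2, .xii, .p4, .taui, .xii, .p10, .xii, .p10, .taui, .xii, .p, .taui, .xii, .p, .Z6, .Z5, .Z4, .Z2, .Z0, .p10, .xi, .tau, .p10, .xi, .tau, .p, .xi, .p, .xi, .tau, .p7, .xi, .p9, .xi, .y2, .X0, .X2, .X5, .X7, .X9, .Z0, .Z1, .Z6, .Z7, .z]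

/-- The conjugate of a generator is in the standard `Fi23`. -/
noncomputable def cj (u ui : List Ltr) (i r : Fi23.Gen) (l : List Fi23.Gen) : Bool :=
  eqc ((wgi ++ ui ++ wg) ++ fw i ++ (wgi ++ u ++ wg)) (kw l.reverse ++ fw r ++ kw l)

/-- The roots, X. -/
def rX : Fi23.Gen → Fi23.Gen
  | .a => .b
  | .b => .b
  | .c => .b
  | .d => .b
  | .e => .b
  | .f => .b
  | .g => .b
  | .h => .b
  | .i => .b
  | .j => .b

/-- The paths, X. -/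
def lX : Fi23.Gen → List Fi23.Gen
  | .a => [.c, .d, .e, .h, .d, .c, .f, .e, .d, .i, .h, .d, .g, .e, .f, .e, .d, .c, .d, .a, .b, .c, .d, .h, .d, .e, .d, .f, .g, .j, .g, .f, .e, .i, .h, .d]
  | .b => [.c, .d, .e, .h, .d, .c, .f, .e, .d, .i, .h, .d, .a, .b, .c, .d, .e, .d, .g, .f, .e, .d, .h, .d, .g, .j, .g]
  | .c => [.c, .d, .e, .h, .d, .c, .f, .e, .d, .i, .h, .d, .a, .c, .b, .c, .d, .e, .d, .g, .f, .e, .d, .c, .h, .d, .j, .g, .e, .f, .e, .d, .i, .h, .d, .c, .e, .d, .b, .a, .c]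
  | .d => [.c, .d, .e, .h, .d, .c, .i, .h, .d, .f, .e, .d, .a, .c, .b, .c, .d, .g, .f, .e, .d, .h, .d, .c, .d, .e, .d, .i, .h, .d, .j, .g, .f, .e, .d, .c, .d, .b, .c, .d, .h, .d, .e, .d, .c, .d, .a, .b]
  | .e => [.c, .d, .e, .h, .d, .c, .f, .e, .d, .i, .h, .d, .a, .g, .c, .b, .c, .e, .f, .e, .d, .g, .j, .g]
  | .f => [.c, .d, .e, .h, .d, .c, .f, .e, .d, .a, .b, .c, .h, .i, .h, .d, .g, .f, .e, .d, .j, .g, .c, .f]
  | .g => [.c, .d, .e, .h, .d, .c, .f, .e, .d, .i, .h, .d, .c, .e, .d, .g, .f, .e, .d, .a, .b, .c, .d, .j, .g, .f, .e, .d, .h, .d, .a, .i, .h]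
  | .h => [.c, .d, .e, .h, .d, .c, .f, .e, .d, .i, .h, .d, .a, .c, .b, .c, .d, .e, .d, .g, .f, .e, .d, .c, .h, .d, .j, .g, .e, .f, .e, .d, .i, .h, .d, .c, .d, .g, .b]
  | .i => [.c, .d, .e, .h, .d, .c, .i, .h, .d, .f, .e, .d, .a, .c, .b, .c, .d, .h, .d, .g, .f, .e, .d, .c, .d, .h, .d, .j, .g, .f, .g, .e, .i, .b]
  | .j => [.c, .d, .e, .h, .d, .c, .f, .e, .d, .i, .h, .d, .g, .f, .e, .d, .c, .d, .a, .b, .c, .d, .h, .d, .e, .d, .i, .h, .d, .c, .d, .j, .g]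

/-- The roots, P. -/
def rP : Fi23.Gen → Fi23.Gen
  | .a => .a
  | .b => .b
  | .c => .b
  | .d => .b
  | .e => .b
  | .f => .b
  | .g => .g
  | .h => .b
  | .i => .b
  | .j => .b

/-- The paths, P. -/
def lP : Fi23.Gen → List Fi23.Gen
  | .a => []
  | .b => [.c, .d, .e, .h, .d, .c, .f, .e, .d, .i, .h, .d, .c, .e, .d, .g, .f, .e, .d, .a, .j, .g, .b, .c, .h, .f]
  | .c => [.c, .d, .e, .h, .d, .c, .f, .e, .d, .i, .h, .d, .c, .e, .d, .g, .f, .e, .d, .j, .g, .c, .f, .e, .d, .h, .d, .a, .c, .b]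
  | .d => [.c, .d, .e, .h, .d, .c, .i, .h, .d, .f, .e, .d, .g, .c, .f, .e, .d, .h, .d, .g, .j, .g, .f, .e, .d, .c, .d, .a, .b]
  | .e => [.c, .d, .e, .h, .d, .c, .f, .e, .d, .g, .f, .e, .h, .d, .a, .j, .g, .i, .f, .b]
  | .f => [.c, .d, .e, .h, .d, .c, .f, .e, .d, .h, .i, .h, .d, .g, .e, .f, .e, .d, .a, .b, .c, .d, .h]
  | .g => []
  | .h => [.c, .d, .e, .h, .d, .c, .i, .h, .d, .f, .e, .d, .a, .g, .b, .c, .f, .e, .d, .h, .d, .c, .i, .h, .d, .e, .d, .g, .f]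
  | .i => [.c, .d, .e, .h, .d, .c, .f, .e, .d, .a, .g, .f, .e, .h, .i, .b]
  | .j => [.c, .d, .e, .h, .d, .a, .c, .i, .f, .b]

/-- The roots, T. -/
def rT : Fi23.Gen → Fi23.Gen
  | .a => .g
  | .b => .b
  | .c => .b
  | .d => .b
  | .e => .b
  | .f => .b
  | .g => .a
  | .h => .b
  | .i => .b
  | .j => .b

/-- The paths, T. -/
def lT : Fi23.Gen → List Fi23.Gen
  | .a => []
  | .b => [.c, .d, .e, .h, .d, .c, .f, .e, .d, .i, .h, .d, .a, .b, .c, .e, .d, .g, .f, .e, .d, .j, .g, .f, .e, .h, .d, .c, .i, .h, .d]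
  | .c => [.c, .d, .e, .h, .d, .c, .f, .e, .d, .h, .i, .h, .d, .g, .f, .e, .d, .a, .b, .c]
  | .d => [.c, .d, .e, .h, .d, .c, .f, .e, .d, .a, .g, .b, .c, .f, .e, .d, .i, .h, .d, .j, .g, .c, .f]
  | .e => [.c, .d, .e, .h, .d, .c, .i, .h, .d, .f, .e, .d, .a, .g, .b, .c, .f, .e, .d, .g, .j, .g, .f, .e, .h, .d, .i]
  | .f => [.c, .d, .e, .h, .d, .c, .f, .e, .d, .i, .h, .d, .c, .e, .d, .g, .f, .e, .d, .a, .b, .c, .d, .h, .d, .j, .g, .f, .e, .d, .c, .i, .h, .d]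
  | .g => []
  | .h => [.c, .d, .e, .h, .d, .c, .f, .e, .d, .a, .b, .c, .i, .h, .d, .g, .e, .f, .e, .d, .g, .j, .g, .c, .f, .e]
  | .i => [.c, .d, .e, .h, .d, .c, .f, .e, .d, .a, .b, .c, .i, .h, .d, .g, .e, .f, .e, .d, .g, .j, .g, .h, .f]
  | .j => [.c, .d, .e, .h, .d, .c, .i, .h, .d, .f, .e, .d, .g, .c, .f, .e, .d, .a, .b, .c, .d, .g, .j, .g, .f, .e, .d, .h, .d, .a, .c, .i]

end Cfsg.Agent.H995.LB
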