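import Cfsg.Agent.H995.LB.Conc
import Cfsg.Agent.H995.LB.ChkF
import Cfsg.Agent.H995.LB.ChkG
import Cfsg.Agent.H995.LB.ChkH
import Cfsg.Agent.BabyM.Fi23B
import Cfsg.Agent.S1697

/-!
# `PSL(2, 23)` in the Baby Monster: the overgroup `Fi23` (helper995, for S5524)
-/

set_option autoImplicit false
set_option linter.constructorNameAsVariable false

namespace Cfsg.Agent.H995.LB

open Subgroup
open Cfsg.Agent.Monster.VecEngine Cfsg.Agent.Monster.VecSpace
open Cfsg.Agent.BabyM.Conc Cfsg.Agent.BabyM.Inst Cfsg.Agent.BabyM.WordsInst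
  Cfsg.Agent.BM.StageW Cfsg.Agent.BabyM.TransCover Cfsg.Spor Cfsg.Agent.MonsterX.WordSub
  Cfsg.Agent.MonsterX.WordRels Cfsg.Agent.BabyM.Fi23B

/-- The standard `Fi23`. -/
noncomputable def KF : Subgroup M.G := closure (Set.range fun s : Fi23.Gen => BM.StageW.x (m s))

theorem iso_KF : Nonempty (Cfsg.Spor.Fi23 ≃* KF) := by
  have A := Cfsg.Agent.BabyM.Instance.all
  have O := Cfsg.Agent.BabyM.Instance.ok
  obtain ⟨K, e, hK⟩ := exists_subgroup Cfsg.Spor.Fi23.edges Cfsg.Spor.Fi23.extra S1697.result.1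
    (fun t => BM.StageW.x (Cfsg.Agent.BabyM.Fi23B.m t)) (by
      rintro r (hr | hr)
      · exact cox_lift _ _ (fun s _ t _ => by rw [label]; exact cox A O _ _) r hr
      · exact lift_extra fi23_extra _ (rels A O) r hr) ⟨.g, t2_ne⟩
  rw [hK] at e
  exact e

theorem fw_mem (i : Fi23.Gen) : Wg (fw i) ∈ KF := by
  have h : Wg (fw i) = BM.StageW.x (m i) := by cases i <;> rfl
  rw [h]
  exact subset_closure ⟨i, rfl⟩

theorem kw_mem (l : List Fi23.Gen) : Wg (kw l) ∈ KF := by
  induction l with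
  | nil => exact (Wg_nil ▸ KF.one_mem : Wg [] ∈ KF)
  | cons i l ih =>
    rw [show kw (i :: l) = fw i ++ kw l from rfl, Wg_append]
    exact KF.mul_mem ih (fw_mem i)

/-- The conjugating element. -/
noncomputable def γ : M.G := Wg wg

theorem γ_inv : Wg wgi = γ⁻¹ := by
  have h := eq_of_eqc f_gg
  rw [Wg_append, Wg_nil] at h
  exact eq_inv_of_mul_eq_one_left h

theorem cj_mem {u ui : List Ltr} {i r : Fi23.Gen} {l : List Fi23.Gen} (h : cj u ui i r l = true)
    (hu : Wg ui = (Wg u)⁻¹) : (γ * Wg u * γ⁻¹) * BM.StageW.x (m i) * (γ * Wg u * γ⁻¹)⁻¹ ∈ KF := by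
  have h1 := eq_of_eqc h
  have h2 : Wg ((wgi ++ ui ++ wg) ++ fw i ++ (wgi ++ u ++ wg)) =
      (γ * Wg u * γ⁻¹) * BM.StageW.x (m i) * (γ * Wg u * γ⁻¹)⁻¹ := by
    have h3 : Wg (fw i) = BM.StageW.x (m i) := by cases i <;> rfl
    rw [Wg_append, Wg_append, Wg_append, Wg_append, Wg_append, Wg_append, h3, hu, γ_inv,
      show Wg wg = γ from rfl]
    group
  rw [← h2, h1, Wg_append, Wg_append]
  exact KF.mul_mem (kw_mem _) (KF.mul_mem (fw_mem _) (kw_mem _))

theorem mem_normalizer_KF [Finite M.G] {g : M.G} (h : ∀ i : Fi23.Gen, g * BM.StageW.x (m i) * g⁻¹ ∈ KF) :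
    g ∈ normalizer (KF : Set M.G) := by
  rw [mem_normalizer_iff_map_conj_eq]
  apply Subgroup.eq_of_le_of_card_ge
  · rw [KF, MonoidHom.map_closure, closure_le]
    rintro _ ⟨_, ⟨i, rfl⟩, rfl⟩
    exact h i
  · rw [Subgroup.card_map_of_injective (MulAut.conj g).injective]

theorem nx [Finite M.G] : γ * X * γ⁻¹ ∈ normalizer (KF : Set M.G) := by
  apply mem_normalizer_KF
  intro i
  cases i
  · exact cj_mem fX_a Xinv
  · exact cj_mem fX_b Xinv
  · exact cj_mem fX_c Xinv
  · exact cj_mem fX_d Xinv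
  · exact cj_mem fX_e Xinv
  · exact cj_mem fX_f Xinv
  · exact cj_mem fX_g Xinv
  · exact cj_mem fX_j Xinv
  · exact cj_mem fX_h Xinv
  · exact cj_mem fX_i Xinv

theorem np [Finite M.G] : γ * P * γ⁻¹ ∈ normalizer (KF : Set M.G) := by
  apply mem_normalizer_KF
  intro i
  cases i
  · exact cj_mem fP_a Pinv
  · exact cj_mem fP_b Pinv
  · exact cj_mem fP_c Pinv
  · exact cj_mem fP_d Pinv
  · exact cj_mem fP_e Pinv
  · exact cj_mem fP_f Pinv
  · exact cj_mem fP_g Pinv
  · exact cj_mem fP_j Pinv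
  · exact cj_mem fP_h Pinv
  · exact cj_mem fP_i Pinv

theorem t_eq : Wg (sw (Sw 25) ++ wd) = D * s 25 := Wg_append _ _

theorem Tinv : Wg (sw (Sw 25) ++ wd) = (Wg (sw (Sw 25) ++ wd))⁻¹ := by
  rw [t_eq, rel25.t_inv]

theorem nt [Finite M.G] : γ * (D * s 25) * γ⁻¹ ∈ normalizer (KF : Set M.G) := by
  rw [← t_eq]
  apply mem_normalizer_KF
  intro i
  cases i
  · exact cj_mem fT_a Tinv
  · exact cj_mem fT_b Tinv
  · exact cj_mem fT_c Tinv
  · exact cj_mem fT_d Tinv
  · exact cj_mem fT_e Tinv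
  · exact cj_mem fT_f Tinv
  · exact cj_mem fT_g Tinv
  · exact cj_mem fT_j Tinv
  · exact cj_mem fT_h Tinv
  · exact cj_mem fT_i Tinv

/-- the conjugate of `PSL(2, 23)` normalising `KF` -/
noncomputable def HF : Subgroup M.G := closure {γ * X * γ⁻¹, γ * P * γ⁻¹, γ * (D * s 25) * γ⁻¹}

theorem HF_eq : HF = (closure {X, P, D * s 25}).map (MulAut.conj γ).toMonoidHom := (map_conj_closure _ _ _ _).symm

theorem HF_le_norm [Finite M.G] : HF ≤ normalizer (KF : Set M.G) := by
  rw [HF, closure_le]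
  rintro _ (rfl | rfl | rfl)
  · exact nx
  · exact np
  · exact nt

theorem card_KF : Nat.card KF = 4089470473293004800 := by
  obtain ⟨e⟩ := iso_KF
  rw [← Nat.card_congr e.toEquiv]
  exact S1697.result.2

theorem relF : Rel (γ * X * γ⁻¹) (γ * P * γ⁻¹) (γ * (D * s 25) * γ⁻¹) := rel25.map (MulAut.conj γ).toMonoidHom

theorem xF_ne : γ * X * γ⁻¹ ≠ 1 := by
  intro h
  rw [mul_inv_eq_one, mul_eq_left] at h
  exact X_ne h

/-- the element of order `23` is in `KF` -/
theorem xF_mem (hcard : Nat.card M.G = 4154781481226426191177580544000000) [Finite M.G] : γ * X * γ⁻¹ ∈ KF := by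
  set N := normalizer (KF : Set M.G) with hN
  have hK : KF ≤ N := le_normalizer
  have hn : (KF.subgroupOf N).Normal := Subgroup.normal_subgroupOf_of_le_normalizer le_rfl
  have h1 : (KF.subgroupOf N).index ∣ 1015970529280000 := by
    have h2 : Nat.card KF * (KF.subgroupOf N).index = Nat.card N := by
      rw [← Subgroup.card_mul_index (KF.subgroupOf N)]
      congr 1
      exact (Nat.card_congr (Subgroup.subgroupOfEquivOfLe hK).toEquiv).symm
    have h3 : Nat.card KF * (KF.subgroupOf N).index ∣ 4154781481226426191177580544000000 := by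
      rw [h2, ← hcard]
      exact Subgroup.card_subgroup_dvd_card N
    rw [card_KF, show 4154781481226426191177580544000000 = 4089470473293004800 * 1015970529280000 by norm_num] at h3
    exact Nat.dvd_of_mul_dvd_mul_left (by norm_num) h3
  have h2 := (KF.subgroupOf N).pow_index_mem (⟨γ * X * γ⁻¹, nx⟩ : N)
  set n := (KF.subgroupOf N).index
  have h3 : (γ * X * γ⁻¹) ^ n ∈ KF := h2
  have hcop : Nat.Coprime n 23 := Nat.Coprime.coprime_dvd_left h1 (by norm_num)
  have h4 : γ * X * γ⁻¹ ∈ zpowers ((γ * X * γ⁻¹) ^ n) := by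
    have h5 : orderOf (γ * X * γ⁻¹) = 23 := by
      have : Fact (Nat.Prime 23) := ⟨by norm_num⟩
      exact orderOf_eq_prime relF.x23 xF_ne
    rw [mem_zpowers_pow_iff, h5]
    exact hcop
  exact (zpowers_le.2 h3) h4

theorem simple_H : IsSimpleGroup (closure {X, P, D * s 25}) := by
  have hF : Fintype.card (ZMod 23) = 23 := ZMod.card 23
  have : Fact (Nat.Prime 23) := ⟨by norm_num⟩
  obtain ⟨e⟩ := iso hF rel25 X_ne
  have := simple_psl hF
  exact e.isSimpleGroup

theorem simple_HF : IsSimpleGroup HF := by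
  have := simple_H
  rw [HF_eq]
  exact ((closure {X, P, D * s 25}).equivMapOfInjective _ (MulAut.conj γ).injective).symm.isSimpleGroup

theorem HF_le (hcard : Nat.card M.G = 4154781481226426191177580544000000) [Finite M.G] : HF ≤ KF := by
  have := simple_HF
  have hn : (KF.subgroupOf HF).Normal := Subgroup.normal_subgroupOf_of_le_normalizer HF_le_norm
  rcases hn.eq_bot_or_eq_top with h | h
  · exfalso
    have h1 : (⟨γ * X * γ⁻¹, subset_closure (by simp)⟩ : HF) ∈ KF.subgroupOf HF := xF_mem hcard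
    rw [h, mem_bot] at h1
    exact xF_ne (congrArg Subtype.val h1)
  · exact Subgroup.subgroupOf_eq_top.1 h

theorem simple_KF : IsSimpleGroup KF := by
  obtain ⟨e⟩ := iso_KF
  have := S1697.result.1
  exact e.symm.isSimpleGroup

/-- **The centralizer of `KF` is trivial.** -/
theorem cent_KF (hcard : Nat.card M.G = 4154781481226426191177580544000000) [Finite M.G]
    (hnorm : normalizer (closure {X, P, D * s 25} : Set M.G) = closure {X, P, D * s 25}) :
    centralizer (KF : Set M.G) = ⊥ := by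
  have hle := HF_le hcard
  have hnF : normalizer (HF : Set M.G) = HF := by
    rw [HF_eq]
    conv_rhs => rw [← hnorm]
    exact (Subgroup.map_equiv_normalizer_eq (closure {X, P, D * s 25}) (MulAut.conj γ)).symm
  rw [eq_bot_iff]
  intro c hc
  have h1 : c ∈ normalizer (HF : Set M.G) :=
    centralizer_le_normalizer (HF : Set M.G) (centralizer_le (fun _ hx => hle hx) hc)
  rw [hnF] at h1
  -- `c` is central in `HF`
  have h2 : (⟨c, h1⟩ : HF) ∈ Subgroup.center HF := by
    rw [Subgroup.mem_center_iff]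
    intro g
    exact Subtype.ext (mem_centralizer_iff.1 hc g.1 (hle g.2))
  have := simple_HF
  rcases (inferInstance : (Subgroup.center HF).Normal).eq_bot_or_eq_top with h | h
  · rw [h, mem_bot] at h2
    exact mem_bot.2 (congrArg Subtype.val h2)
  · exfalso
    -- then `HF` is commutative
    have h3 : (⟨γ * P * γ⁻¹, subset_closure (by simp)⟩ : HF) ∈ Subgroup.center HF := by rw [h]; trivial
    have h4 := congrArg Subtype.val (Subgroup.mem_center_iff.1 h3 ⟨γ * X * γ⁻¹, subset_closure (by simp)⟩)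
    have h5 : (γ * X * γ⁻¹) * (γ * P * γ⁻¹) = (γ * P * γ⁻¹) * (γ * X * γ⁻¹) := h4
    have h6 := relF.yx
    rw [← h5, mul_inv_cancel_right] at h6
    have h7 : (γ * X * γ⁻¹) ^ 15 = 1 := by
      have h8 : (γ * X * γ⁻¹) ^ 15 * (γ * X * γ⁻¹) = γ * X * γ⁻¹ := by rw [← pow_succ]; exact h6.symm
      exact mul_eq_right.1 h8
    have h9 : orderOf (γ * X * γ⁻¹) = 23 := by
      have : Fact (Nat.Prime 23) := ⟨by norm_num⟩
      exact orderOf_eq_prime relF.x23 xF_ne
    have h10 := orderOf_dvd_of_pow_eq_one h7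
    rw [h9] at h10
    exact absurd h10 (by norm_num)

end Cfsg.Agent.H995.LB
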