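import Cfsg.Agent.H995.LB.Rel
import Cfsg.Agent.H160.PSLTwo
import Cfsg.Agent.TwoFusion.SLTwoFacts

/-!
# `PSL(2, 23)` by its presentation (helper995, for S5524)

* `exists_rel` : generators of `PSL(2, F)`, `|F| = 23`, satisfying `Rel`;
* `iso` : `⟨x, y, t⟩ ≅ PSL(2, F)` for `Rel x y t`, `x ≠ 1`.
-/

set_option autoImplicit false

namespace Cfsg.Agent.H995.LB

open Subgroup Matrix

variable {F : Type*} [Field F]

section

variable (F)

/-- `[1, 1; 0, 1]` -/
def mx : SpecialLinearGroup (Fin 2) F := ⟨!![1, 1; 0, 1], by simp [Matrix.det_fin_two]⟩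

/-- `[0, 1; -1, 0]` -/
def mt : SpecialLinearGroup (Fin 2) F := ⟨!![0, 1; -1, 0], by simp [Matrix.det_fin_two]⟩

end

/-- `[1, a; 0, 1]` -/
def mu (a : F) : SpecialLinearGroup (Fin 2) F := ⟨!![1, a; 0, 1], by simp [Matrix.det_fin_two]⟩

/-- `[1, 0; a, 1]` -/
def ml (a : F) : SpecialLinearGroup (Fin 2) F := ⟨!![1, 0; a, 1], by simp [Matrix.det_fin_two]⟩

theorem coe_mx : (mx F : Matrix (Fin 2) (Fin 2) F) = !![1, 1; 0, 1] := rfl

theorem coe_mt : (mt F : Matrix (Fin 2) (Fin 2) F) = !![0, 1; -1, 0] := rfl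

theorem coe_mu (a : F) : (mu a : Matrix (Fin 2) (Fin 2) F) = !![1, a; 0, 1] := rfl

theorem coe_ml (a : F) : (ml a : Matrix (Fin 2) (Fin 2) F) = !![1, 0; a, 1] := rfl

theorem mat_ext {a b c d a' b' c' d' : F} (h1 : a = a') (h2 : b = b') (h3 : c = c') (h4 : d = d') :
    !![a, b; c, d] = !![a', b'; c', d'] := by rw [h1, h2, h3, h4]

theorem mx_pow (n : ℕ) : (mx F) ^ n = mu (n : F) := by
  induction n with
  | zero =>
    rw [pow_zero]
    apply Subtype.ext
    rw [coe_mu, Matrix.SpecialLinearGroup.coe_one, Matrix.one_fin_two]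
    simp
  | succ n ih =>
    rw [pow_succ, ih]
    apply Subtype.ext
    rw [Matrix.SpecialLinearGroup.coe_mul, coe_mu, coe_mu, coe_mx, Matrix.mul_fin_two]
    apply mat_ext <;> push_cast <;> ring

theorem ml_eq (a : F) : ml a = mt F * mu (-a) * (mt F)⁻¹ := by
  rw [eq_mul_inv_iff_mul_eq]
  apply Subtype.ext
  rw [Matrix.SpecialLinearGroup.coe_mul, Matrix.SpecialLinearGroup.coe_mul, coe_mu, coe_ml, coe_mt,
    Matrix.mul_fin_two, Matrix.mul_fin_two]
  apply mat_ext <;> ring

theorem mem_of_low {L : Subgroup (SpecialLinearGroup (Fin 2) F)} (hu : ∀ a, mu a ∈ L) (hl : ∀ a, ml a ∈ L)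
    (A : SpecialLinearGroup (Fin 2) F) (hc : A.1 1 0 ≠ 0) : A ∈ L := by
  have hd := A.2
  rw [Matrix.det_fin_two] at hd
  have e : A = mu ((A.1 0 0 - 1) / A.1 1 0) * ml (A.1 1 0) * mu ((A.1 1 1 - 1) / A.1 1 0) := by
    apply Subtype.ext
    rw [Matrix.SpecialLinearGroup.coe_mul, Matrix.SpecialLinearGroup.coe_mul, coe_mu, coe_ml, coe_mu,
      Matrix.mul_fin_two, Matrix.mul_fin_two]
    refine (Matrix.eta_fin_two A.1).trans ?_
    apply mat_ext
    · field_simp
      ring
    · field_simp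
      linear_combination -hd
    · field_simp
      ring
    · field_simp
      ring
  rw [e]
  exact L.mul_mem (L.mul_mem (hu _) (hl _)) (hu _)

theorem closure_sl (hN : ∀ a : F, ∃ n : ℕ, (n : F) = a) : closure {mx F, mt F} = ⊤ := by
  set L := closure {mx F, mt F} with hL
  have hx : mx F ∈ L := subset_closure (by simp)
  have ht : mt F ∈ L := subset_closure (by simp)
  have hu : ∀ a, mu a ∈ L := by
    intro a
    obtain ⟨n, rfl⟩ := hN a
    rw [← mx_pow]
    exact L.pow_mem hx n
  have hl : ∀ a, ml a ∈ L := by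
    intro a
    rw [ml_eq]
    exact L.mul_mem (L.mul_mem ht (hu _)) (L.inv_mem ht)
  rw [eq_top_iff]
  rintro A -
  by_cases hc : A.1 1 0 = 0
  · have h1 : mt F * A ∈ L := by
      apply mem_of_low hu hl
      have hd := A.2
      rw [Matrix.det_fin_two, hc, mul_zero, sub_zero] at hd
      have e : (mt F * A).1 1 0 = - A.1 0 0 := by
        rw [Matrix.SpecialLinearGroup.coe_mul, coe_mt, Matrix.mul_apply, Fin.sum_univ_two]
        simp
      rw [e]
      intro h0
      rw [neg_eq_zero] at h0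
      rw [h0, zero_mul] at hd
      exact zero_ne_one hd
    have h2 := L.mul_mem (L.inv_mem ht) h1
    rwa [inv_mul_cancel_left] at h2
  · exact mem_of_low hu hl A hc

variable [Fintype F]

theorem charP (hF : Fintype.card F = 23) : CharP F 23 := by
  obtain ⟨p, hp⟩ := CharP.exists F
  obtain ⟨n, hpp, hn⟩ := FiniteField.card F p
  rw [hF] at hn
  have h1 : p ∣ 23 := by rw [hn]; exact dvd_pow_self p n.2.ne'
  have h2 : p = 23 := (Nat.prime_dvd_prime_iff_eq hpp (by norm_num)).1 h1
  rwa [← h2]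

theorem exists_nat (hF : Fintype.card F = 23) (a : F) : ∃ n : ℕ, (n : F) = a := by
  have := charP hF
  have hinj : Function.Injective (fun n : Fin 23 => ((n : ℕ) : F)) := by
    intro m n hmn
    have h1 : ((m : ℕ) : F) = ((n : ℕ) : F) := hmn
    rw [CharP.natCast_eq_natCast F 23] at h1
    have h2 : (m : ℕ) % 23 = (n : ℕ) % 23 := h1
    rw [Nat.mod_eq_of_lt m.2, Nat.mod_eq_of_lt n.2] at h2
    exact Fin.ext h2
  have hb : Function.Bijective (fun n : Fin 23 => ((n : ℕ) : F)) := by
    rw [Fintype.bijective_iff_injective_and_card]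
    exact ⟨hinj, by rw [hF, Fintype.card_fin]⟩
  obtain ⟨n, hn⟩ := hb.2 a
  exact ⟨n, hn⟩

theorem mk_eq_one {A : SpecialLinearGroup (Fin 2) F} (h : (A : Matrix (Fin 2) (Fin 2) F) = 1 ∨ (A : Matrix (Fin 2) (Fin 2) F) = -1) :
    (QuotientGroup.mk A : ProjectiveSpecialLinearGroup (Fin 2) F) = 1 := by
  have := (H160.PSLTwo.mk_pow_eq_one_iff A 1).2 (by rwa [pow_one])
  rwa [pow_one] at this

theorem exists_rel (hF : Fintype.card F = 23) : ∃ x y t : ProjectiveSpecialLinearGroup (Fin 2) F,
    Rel x y t ∧ closure {x, y, t} = ⊤ ∧ x ≠ 1 := by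
  have hcp := charP hF
  have h23 : (23 : F) = 0 := by exact_mod_cast CharP.cast_eq_zero F 23
  let Y : SpecialLinearGroup (Fin 2) F := ⟨!![4, 0; 0, 6], by
    rw [Matrix.det_fin_two]; simp; linear_combination h23⟩
  have hY : (Y : Matrix (Fin 2) (Fin 2) F) = !![4, 0; 0, 6] := rfl
  let π : SpecialLinearGroup (Fin 2) F →* ProjectiveSpecialLinearGroup (Fin 2) F := QuotientGroup.mk' _
  have hπ : Function.Surjective π := QuotientGroup.mk'_surjective _
  have hone : ∀ A : SpecialLinearGroup (Fin 2) F, ((A : Matrix (Fin 2) (Fin 2) F) = 1 ∨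
      (A : Matrix (Fin 2) (Fin 2) F) = -1) → π A = 1 := fun A h => mk_eq_one h
  have hYpow : ∀ n : ℕ, ((Y ^ n : SpecialLinearGroup (Fin 2) F) : Matrix (Fin 2) (Fin 2) F) = !![4 ^ n, 0; 0, 6 ^ n] := by
    intro n
    induction n with
    | zero =>
      rw [pow_zero, pow_zero, pow_zero, Matrix.SpecialLinearGroup.coe_one, Matrix.one_fin_two]
    | succ n ih =>
      rw [pow_succ, Matrix.SpecialLinearGroup.coe_mul, ih, hY, Matrix.mul_fin_two]
      apply mat_ext <;> ring
  refine ⟨π (mx F), π Y, π (mt F), ⟨?_, ?_, ?_, ?_, ?_, ?_⟩, ?_, ?_⟩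
  · rw [← map_pow, mx_pow]
    apply hone
    left
    rw [coe_mu, Matrix.one_fin_two]
    apply mat_ext rfl _ rfl rfl
    exact CharP.cast_eq_zero F 23
  · rw [← map_pow]
    apply hone
    left
    rw [hYpow, Matrix.one_fin_two]
    apply mat_ext
    · linear_combination 182361 * h23
    · rfl
    · rfl
    · linear_combination 15773785 * h23
  · rw [← map_inv, ← map_mul, ← map_mul, ← map_pow, mx_pow]
    congr 1
    rw [mul_inv_eq_iff_eq_mul]
    apply Subtype.ext
    rw [Matrix.SpecialLinearGroup.coe_mul, Matrix.SpecialLinearGroup.coe_mul, hY, coe_mx, coe_mu,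
      Matrix.mul_fin_two, Matrix.mul_fin_two]
    apply mat_ext
    · ring
    · push_cast
      linear_combination (-4) * h23
    · ring
    · ring
  · rw [← map_mul]
    apply hone
    right
    rw [Matrix.SpecialLinearGroup.coe_mul, coe_mt, Matrix.mul_fin_two, Matrix.one_fin_two]
    ext i j
    fin_cases i <;> fin_cases j <;> simp
  · rw [eq_inv_iff_mul_eq_one, ← map_mul, ← map_mul, ← map_mul]
    apply hone
    right
    rw [Matrix.SpecialLinearGroup.coe_mul, Matrix.SpecialLinearGroup.coe_mul, Matrix.SpecialLinearGroup.coe_mul,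
      coe_mt, hY, Matrix.mul_fin_two, Matrix.mul_fin_two, Matrix.mul_fin_two, Matrix.one_fin_two]
    ext i j
    fin_cases i <;> fin_cases j
    · simp
      first | linear_combination (-1) * h23 | linear_combination h23
    · simp
    · simp
    · simp
      first | linear_combination (-1) * h23 | linear_combination h23
  · rw [← map_mul, ← map_pow]
    apply hone
    left
    rw [pow_succ, pow_two, Matrix.SpecialLinearGroup.coe_mul, Matrix.SpecialLinearGroup.coe_mul,
      Matrix.SpecialLinearGroup.coe_mul, coe_mx, coe_mt, Matrix.mul_fin_two, Matrix.mul_fin_two, Matrix.mul_fin_two,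
      Matrix.one_fin_two]
    apply mat_ext <;> ring
  · rw [eq_top_iff, ← MonoidHom.range_eq_top.2 hπ, MonoidHom.range_eq_map, ← closure_sl (exists_nat hF), MonoidHom.map_closure]
    apply Subgroup.closure_mono
    rintro _ ⟨A, (rfl | rfl), rfl⟩
    · simp
    · simp
  · intro h
    have h1 := (H160.PSLTwo.mk_pow_eq_one_iff (mx F) 1).1 (by rw [pow_one]; exact h)
    rw [pow_one] at h1
    rcases h1 with h1 | h1
    · have h2 := congrFun (congrFun h1 0) 1
      simp [mx] at h2
    · have h2 := congrFun (congrFun h1 0) 1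
      simp [mx] at h2

theorem card_psl (hF : Fintype.card F = 23) : Nat.card (ProjectiveSpecialLinearGroup (Fin 2) F) = 6072 := by
  have h1 := ClassicalGeometry.PSL2Basic.card_PSL2_odd F (by rw [hF]; decide)
  rw [hF] at h1
  omega

theorem simple_psl (hF : Fintype.card F = 23) : IsSimpleGroup (ProjectiveSpecialLinearGroup (Fin 2) F) :=
  TwoFusion.SLTwoFacts.isSimpleGroup_psl (by rw [hF]; norm_num)

theorem iso_of {P : Type*} [Group P] (hs : IsSimpleGroup P) (hcP : Nat.card P = 6072) {x' y' t' : P}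
    (h' : Rel x' y' t') (hc : closure {x', y', t'} = ⊤) {G : Type*} [Group G] {x y t : G} (h : Rel x y t)
    (hx : x ≠ 1) : Nonempty (closure {x, y, t} ≃* P) := by
  have hR : Rel (x, x') (y, y') (t, t') := by
    refine ⟨?_, ?_, ?_, ?_, ?_, ?_⟩
    · exact Prod.ext h.x23 h'.x23
    · exact Prod.ext h.y11 h'.y11
    · exact Prod.ext h.yx h'.yx
    · exact Prod.ext h.t2 h'.t2
    · exact Prod.ext h.ty h'.ty
    · exact Prod.ext h.xt h'.xt
  let Γ : Subgroup (G × P) := closure {(x, x'), (y, y'), (t, t')}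
  have hfin : Finite Γ := hR.finite
  have hle : Nat.card Γ ≤ 6072 := hR.card_le
  have hm2 : Γ.map (MonoidHom.snd G P) = ⊤ := by
    rw [MonoidHom.map_closure, ← hc]
    congr 1
    ext g
    simp [eq_comm]
  have hm1 : Γ.map (MonoidHom.fst G P) = closure {x, y, t} := by
    rw [MonoidHom.map_closure]
    congr 1
    ext g
    simp [eq_comm]
  let f2 : Γ →* P := (MonoidHom.snd G P).comp Γ.subtype
  have hf2 : Function.Surjective f2 := by
    rw [← MonoidHom.range_eq_top, MonoidHom.range_eq_map]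
    show (⊤ : Subgroup Γ).map ((MonoidHom.snd G P).comp Γ.subtype) = ⊤
    rw [← Subgroup.map_map, ← MonoidHom.range_eq_map, range_subtype, hm2]
  have hcard : Nat.card Γ = Nat.card P := by
    apply le_antisymm (by rw [hcP]; exact hle)
    exact Nat.card_le_card_of_surjective f2 hf2
  have hb2 : Function.Bijective f2 := (Nat.bijective_iff_surjective_and_card f2).2 ⟨hf2, hcard⟩
  let e2 : Γ ≃* P := MulEquiv.ofBijective f2 hb2
  have hsΓ : IsSimpleGroup Γ := (MulEquiv.isSimpleGroup_congr e2).2 hs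
  let f1 : Γ →* G := (MonoidHom.fst G P).comp Γ.subtype
  have hf1 : f1.range = closure {x, y, t} := by
    rw [MonoidHom.range_eq_map]
    show (⊤ : Subgroup Γ).map ((MonoidHom.fst G P).comp Γ.subtype) = _
    rw [← Subgroup.map_map, ← MonoidHom.range_eq_map, range_subtype, hm1]
  have hi1 : Function.Injective f1 := by
    rw [← MonoidHom.ker_eq_bot_iff]
    rcases hsΓ.eq_bot_or_eq_top_of_normal f1.ker inferInstance with h0 | h0
    · exact h0
    · exfalso
      have hxm : (x, x') ∈ Γ := subset_closure (by simp)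
      have h1 : (⟨(x, x'), hxm⟩ : Γ) ∈ f1.ker := by rw [h0]; exact mem_top _
      exact hx (MonoidHom.mem_ker.1 h1)
  let e1 : Γ ≃* f1.range := MonoidHom.ofInjective hi1
  exact ⟨(MulEquiv.subgroupCongr hf1.symm).trans (e1.symm.trans e2)⟩

/-- **The presentation of `PSL(2, 23)`.** -/
theorem iso (hF : Fintype.card F = 23) {G : Type*} [Group G] {x y t : G} (h : Rel x y t) (hx : x ≠ 1) :
    Nonempty (closure {x, y, t} ≃* ProjectiveSpecialLinearGroup (Fin 2) F) := by
  obtain ⟨x', y', t', h', hc, -⟩ := exists_rel hF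
  exact iso_of (simple_psl hF) (card_psl hF) h' hc h hx

theorem card_closure {G : Type*} [Group G] {x y t : G} (h : Rel x y t) (hx : x ≠ 1) :
    Nat.card (closure {x, y, t}) = 6072 := by
  have hF : Fintype.card (ZMod 23) = 23 := ZMod.card 23
  have : Fact (Nat.Prime 23) := ⟨by norm_num⟩
  obtain ⟨e⟩ := iso hF h hx
  rw [Nat.card_congr e.toEquiv, card_psl hF]

end Cfsg.Agent.H995.LB
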