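import Cfsg.Agent.H995.LB.Rel

/-!
# Reduction of the triples of the presentation of `PSL(2, 23)` (helper995, for S5524)
-/

set_option autoImplicit false

namespace Cfsg.Agent.H995.LB

open Subgroup

section sylow

variable {G : Type*} [Group G] [Finite G] {p : ℕ} [Fact p.Prime]

theorem sylow_eq (hp : ¬ p ^ 2 ∣ Nat.card G) {c : G} (hc : orderOf c = p) :
    ∃ Q : Sylow p G, (Q : Subgroup G) = zpowers c := by
  have h1 : IsPGroup p (zpowers c) := IsPGroup.of_card (n := 1) (by rw [Nat.card_zpowers, hc, pow_one])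
  obtain ⟨Q, hQ⟩ := h1.exists_le_sylow
  refine ⟨Q, (Subgroup.eq_of_le_of_card_ge hQ ?_).symm⟩
  rw [Nat.card_zpowers, hc]
  obtain ⟨n, hn⟩ := IsPGroup.iff_card.1 Q.2
  have hn2 : n < 2 := by
    by_contra h
    exact hp ((pow_dvd_pow p (by omega)).trans (hn ▸ Subgroup.card_subgroup_dvd_card (Q : Subgroup G)))
  rw [hn]
  calc p ^ n ≤ p ^ 1 := Nat.pow_le_pow_right (Fact.out : p.Prime).pos (by omega)
    _ = p := pow_one p

theorem conj_prime (hp : ¬ p ^ 2 ∣ Nat.card G) {a b : G} (ha : orderOf a = p) (hb : orderOf b = p) :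
    ∃ g : G, g * a * g⁻¹ ∈ zpowers b := by
  obtain ⟨Q, hQ⟩ := sylow_eq hp ha
  obtain ⟨R, hR⟩ := sylow_eq hp hb
  obtain ⟨g, hg⟩ := MulAction.exists_smul_eq G Q R
  refine ⟨g, ?_⟩
  have h1 : a ∈ (Q : Subgroup G) := by rw [hQ]; exact mem_zpowers a
  have h2 : g * a * g⁻¹ ∈ ((g • Q : Sylow p G) : Subgroup G) := by
    rw [Sylow.coe_subgroup_smul]
    exact ⟨a, h1, rfl⟩
  rw [hg, hR] at h2
  exact h2

theorem conj_prime_in (hp : ¬ p ^ 2 ∣ Nat.card G) (N : Subgroup G) {a b : G} (haN : a ∈ N) (hbN : b ∈ N)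
    (ha : orderOf a = p) (hb : orderOf b = p) : ∃ g ∈ N, g * a * g⁻¹ ∈ zpowers b := by
  have hpN : ¬ p ^ 2 ∣ Nat.card N := fun h => hp (h.trans (Subgroup.card_subgroup_dvd_card N))
  obtain ⟨g, hg⟩ := conj_prime (a := (⟨a, haN⟩ : N)) (b := ⟨b, hbN⟩) hpN (by rw [← orderOf_submonoid] at *; exact ha)
    (by rw [← orderOf_submonoid] at *; exact hb)
  refine ⟨g, g.2, ?_⟩
  obtain ⟨n, hn⟩ := mem_zpowers_iff.1 hg
  exact mem_zpowers_iff.2 ⟨n, by simpa using congrArg Subtype.val hn⟩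

end sylow

namespace Rel

variable {G H : Type*} [Group G] [Group H] {x y t : G}

theorem map (h : Rel x y t) (f : G →* H) : Rel (f x) (f y) (f t) where
  x23 := by rw [← map_pow, h.x23, map_one]
  y11 := by rw [← map_pow, h.y11, map_one]
  yx := by rw [← map_inv, ← map_mul, ← map_mul, h.yx, map_pow]
  t2 := by rw [← map_mul, h.t2, map_one]
  ty := by rw [← map_mul, ← map_mul, h.ty, map_inv]
  xt := by rw [← map_mul, ← map_pow, h.xt, map_one]

end Rel

theorem map_closure3 {G H : Type*} [Group G] [Group H] (f : G →* H) (x y t : G) :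
    (closure {x, y, t}).map f = closure {f x, f y, f t} := by
  rw [MonoidHom.map_closure, Set.image_insert_eq, Set.image_insert_eq, Set.image_singleton]

theorem closure_inv3 {G : Type*} [Group G] (x y t : G) : closure {x⁻¹, y, t} = closure {x, y, t} := by
  apply le_antisymm
  · rw [closure_le]
    intro s hs
    rcases hs with rfl | hs
    · exact inv_mem (subset_closure (Set.mem_insert _ _))
    · exact subset_closure (Set.mem_insert_of_mem _ hs)
  · rw [closure_le]
    intro s hs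
    rcases hs with rfl | hs
    · have h7 : s⁻¹ ∈ closure {s⁻¹, y, t} := subset_closure (Set.mem_insert _ _)
      exact (inv_mem_iff (x := s)).1 h7
    · exact subset_closure (Set.mem_insert_of_mem _ hs)

theorem map_conj_closure {G : Type*} [Group G] (c x y t : G) :
    (closure {x, y, t}).map (MulAut.conj c).toMonoidHom = closure {c * x * c⁻¹, c * y * c⁻¹, c * t * c⁻¹} :=
  map_closure3 _ _ _ _

theorem map_conj_mul {G : Type*} [Group G] (g c : G) (S : Subgroup G) :
    S.map (MulAut.conj (g * c)).toMonoidHom = (S.map (MulAut.conj c).toMonoidHom).map (MulAut.conj g).toMonoidHom := by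
  rw [Subgroup.map_map]
  congr 1
  refine MonoidHom.ext fun s => ?_
  show g * c * s * (g * c)⁻¹ = g * (c * s * c⁻¹) * g⁻¹
  group

/-- The configuration. -/
structure Conf {G : Type*} [Group G] (X P d : G) (K : Subgroup G) : Prop where
  x23 : X ^ 23 = 1
  x_ne : X ≠ 1
  y11 : P ^ 11 = 1
  yx : P * X * P⁻¹ = X ^ 16
  dd : d * d = 1
  dy : d * P * d = P⁻¹
  kP : ∀ k ∈ K, k * P = P * k
  kd : ∀ k ∈ K, k * d = d * k
  cent : ∀ g, g * P = P * g → ∃ k ∈ K, ∃ n : ℕ, g = P ^ n * k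
  cop : Nat.Coprime (Nat.card K) 11

namespace Conf

variable {G : Type*} [Group G] {X P d : G} {K : Subgroup G} (C : Conf X P d K)

include C

theorem ordX : orderOf X = 23 := by
  have : Fact (Nat.Prime 23) := ⟨by norm_num⟩
  exact orderOf_eq_prime C.x23 C.x_ne

theorem P_ne : P ≠ 1 := by
  intro h
  have h1 := C.yx
  rw [h, one_mul, inv_one, mul_one] at h1
  have h2 : X ^ 15 = 1 := by
    have h3 : X ^ 15 * X = X := by rw [← pow_succ]; exact h1.symm
    exact mul_eq_right.1 h3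
  have h3 := orderOf_dvd_of_pow_eq_one h2
  rw [C.ordX] at h3
  exact absurd h3 (by norm_num)

theorem ordP : orderOf P = 11 := by
  have : Fact (Nat.Prime 11) := ⟨by norm_num⟩
  exact orderOf_eq_prime C.y11 C.P_ne

theorem xmod {a b : ℕ} (hab : a % 23 = b % 23) : X ^ a = X ^ b := by
  rw [← Nat.mod_add_div a 23, ← Nat.mod_add_div b 23, hab, pow_add, pow_add, pow_mul, pow_mul, C.x23,
    one_pow, one_pow]

theorem mod_of {a b : ℕ} (hab : X ^ a = X ^ b) : a % 23 = b % 23 := by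
  have := pow_inj_mod.1 hab
  rwa [C.ordX] at this

theorem ymod {a b : ℕ} (hab : a % 11 = b % 11) : P ^ a = P ^ b := by
  rw [← Nat.mod_add_div a 11, ← Nat.mod_add_div b 11, hab, pow_add, pow_add, pow_mul, pow_mul, C.y11,
    one_pow, one_pow]

theorem yx_pow (m n : ℕ) : P ^ m * X ^ n = X ^ (16 ^ m * n) * P ^ m := by
  have h1 : ∀ n, P * X ^ n = X ^ (16 * n) * P := by
    intro n
    have h2 : (P * X * P⁻¹) ^ n = X ^ (16 * n) := by rw [C.yx, ← pow_mul]
    rw [conj_pow] at h2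
    rw [← h2]
    group
  induction m generalizing n with
  | zero => simp
  | succ m ih =>
    rw [pow_succ, mul_assoc, h1, ← mul_assoc, ih, mul_assoc, ← pow_succ,
      show 16 ^ m * (16 * n) = 16 ^ (m + 1) * n by ring]

theorem conj_pow' (m n : ℕ) : P ^ m * X ^ n * (P ^ m)⁻¹ = X ^ (16 ^ m * n) := by
  rw [C.yx_pow, mul_inv_cancel_right]

/-- an element normalising both acts trivially on `⟨P⟩` -/
theorem norm_P {x y : G} (hy : y * x * y⁻¹ = x ^ 16) {b j : ℕ} (hx : x = X ^ b) (hb : b % 23 ≠ 0)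
    (hyj : y = P ^ j) : y = P := by
  subst hx
  subst hyj
  rw [C.conj_pow', ← pow_mul] at hy
  have h1 := C.mod_of hy
  have hj : 16 ^ j % 23 = 16 ^ (j % 11) % 23 := by
    conv_lhs => rw [← Nat.mod_add_div j 11, pow_add, pow_mul, Nat.mul_mod, Nat.pow_mod (16 ^ 11),
      show (16 ^ 11) % 23 = 1 by norm_num, one_pow]
    simp
  have h2 : j % 11 = 1 := by
    have h3 : 16 ^ (j % 11) % 23 * (b % 23) % 23 = (b % 23) * 16 % 23 := by
      rw [← hj, ← Nat.mul_mod, h1]
      simp [Nat.mul_mod]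
    have h4 : ∀ i : Fin 11, ∀ c : Fin 23, c.1 ≠ 0 → 16 ^ i.1 % 23 * c.1 % 23 = c.1 * 16 % 23 → i.1 = 1 := by
      decide +kernel
    exact h4 ⟨j % 11, Nat.mod_lt _ (by norm_num)⟩ ⟨b % 23, Nat.mod_lt _ (by norm_num)⟩ hb h3
  rw [C.ymod (a := j) (b := 1) (by omega), pow_one]

theorem pow_ne {x : G} (hx : x ∈ zpowers X) (hne : x ≠ 1) : ∃ a : ℕ, a % 23 ≠ 0 ∧ x = X ^ a := by
  obtain ⟨n, hn⟩ := mem_zpowers_iff.1 hx
  have h1 : x = X ^ (n % 23).toNat := by
    rw [← zpow_natCast, Int.toNat_of_nonneg (Int.emod_nonneg _ (by norm_num)), ← hn]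
    have h2 : X ^ (23 : ℤ) = 1 := by exact_mod_cast C.x23
    conv_lhs => rw [← Int.emod_add_mul_ediv n 23, zpow_add, zpow_mul, h2, one_zpow, mul_one]
  refine ⟨_, ?_, h1⟩
  intro h2
  apply hne
  rw [h1, C.xmod (a := (n % 23).toNat) (b := 0) (by simpa using h2), pow_zero]

theorem pow_of_X {y : G} (hy : y ∈ zpowers X) : ∃ j : ℕ, y = X ^ j := by
  by_cases h : y = 1
  · exact ⟨0, by rw [h, pow_zero]⟩
  · obtain ⟨a, -, ha⟩ := C.pow_ne hy h
    exact ⟨a, ha⟩

theorem pow_of_P {y : G} (hy : y ∈ zpowers P) : ∃ j : ℕ, y = P ^ j := by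
  obtain ⟨n, hn⟩ := mem_zpowers_iff.1 hy
  refine ⟨(n % 11).toNat, ?_⟩
  rw [← zpow_natCast, Int.toNat_of_nonneg (Int.emod_nonneg _ (by norm_num)), ← hn]
  have h2 : P ^ (11 : ℤ) = 1 := by exact_mod_cast C.y11
  conv_lhs => rw [← Int.emod_add_mul_ediv n 11, zpow_add, zpow_mul, h2, one_zpow, mul_one]

theorem dP (n : ℕ) : d * P ^ n = P ^ (10 * n) * d := by
  have h1 : d * P = P ^ 10 * d := by
    have h2 : P ^ 10 = P⁻¹ := by
      rw [eq_inv_iff_mul_eq_one, ← pow_succ]; exact C.y11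
    rw [h2, ← C.dy, mul_assoc, C.dd, mul_one]
  induction n with
  | zero => simp
  | succ m ih =>
    rw [pow_succ, ← mul_assoc, ih, mul_assoc, h1, ← mul_assoc, ← pow_add]
    congr 2

/-- Step C -/
theorem stepC {x t : G} (h : Rel x P t) (hxX : x ∈ zpowers X) (hx : x ≠ 1) :
    ∃ g : G, ∃ k ∈ K, k * k = 1 ∧ ∃ j : ℕ, j < 11 ∧ (X * (P ^ j * d * k)) ^ 3 = 1 ∧
      (closure {x, P, t}).map (MulAut.conj g).toMonoidHom = closure {X, P, P ^ j * d * k} := by
  -- `t = P ^ j d k`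
  have hdt : (d * t) * P = P * (d * t) := by
    have h1 : t * P = P⁻¹ * t := by
      rw [← h.ty, mul_assoc, h.t2, mul_one]
    have h2 : d * P⁻¹ = P * d := by
      rw [← C.dy, ← mul_assoc, ← mul_assoc, C.dd, one_mul]
    rw [mul_assoc, h1, ← mul_assoc, h2, mul_assoc]
  obtain ⟨k, hk, n, hn⟩ := C.cent _ hdt
  have ht : t = P ^ (10 * n) * d * k := by
    have h1 : t = d * (d * t) := by rw [← mul_assoc, C.dd, one_mul]
    rw [h1, hn, ← mul_assoc, C.dP]
  have hkd := C.kd k hk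
  have hkP : ∀ m, k * P ^ m = P ^ m * k := fun m => (Commute.pow_right (C.kP k hk) m)
  have hkk : k * k = 1 := by
    have h1 := h.t2
    rw [ht] at h1
    have h2 : P ^ (10 * n) * d * k * (P ^ (10 * n) * d * k) = k * k := by
      calc P ^ (10 * n) * d * k * (P ^ (10 * n) * d * k) = P ^ (10 * n) * d * (k * P ^ (10 * n)) * d * k := by
            simp only [mul_assoc]
        _ = P ^ (10 * n) * (d * P ^ (10 * n)) * (k * d) * k := by rw [hkP]; simp only [mul_assoc]
        _ = P ^ (10 * n) * P ^ (10 * (10 * n)) * (d * d) * k * k := by rw [C.dP, hkd]; simp only [mul_assoc]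
        _ = k * k := by
          rw [← pow_add, C.dd, C.ymod (a := 10 * n + 10 * (10 * n)) (b := 0) (by omega), pow_zero, one_mul, one_mul]
    rw [h2] at h1
    exact h1
  -- `x = X ^ (± 16 ^ m)`
  obtain ⟨a, ha, hxa⟩ := C.pow_ne hxX hx
  have h1 : ∀ a : Fin 23, a ≠ 0 → ∃ m : Fin 11, (16 ^ m.1 % 23 = a.1 ∨ 22 * 16 ^ m.1 % 23 = a.1) := by
    decide
  obtain ⟨m, hm⟩ := h1 ⟨a % 23, Nat.mod_lt _ (by norm_num)⟩ (fun h => ha (congrArg Fin.val h))
  -- the new triple
  set g : G := (P ^ m.1)⁻¹ with hg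
  have hgP : g * P * g⁻¹ = P := by
    rw [hg, inv_inv, mul_assoc, ← pow_succ', pow_succ, ← mul_assoc, inv_mul_cancel, one_mul]
  have hgt : g * t * g⁻¹ = P ^ ((9 * m.1 + 10 * n) % 11) * d * k := by
    have h2 : g = P ^ (10 * m.1) := by
      rw [hg, inv_eq_iff_mul_eq_one, ← pow_add, C.ymod (a := m.1 + 10 * m.1) (b := 0) (by omega), pow_zero]
    have h3 : g⁻¹ = P ^ m.1 := by rw [hg, inv_inv]
    rw [h3, h2, ht]
    calc P ^ (10 * m.1) * (P ^ (10 * n) * d * k) * P ^ m.1 = P ^ (10 * m.1) * P ^ (10 * n) * d * (k * P ^ m.1) := by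
          simp only [mul_assoc]
      _ = P ^ (10 * m.1) * P ^ (10 * n) * (d * P ^ m.1) * k := by rw [hkP]; simp only [mul_assoc]
      _ = (P ^ (10 * m.1) * P ^ (10 * n) * P ^ (10 * m.1)) * d * k := by rw [C.dP]; simp only [mul_assoc]
      _ = _ := by
        rw [← pow_add, ← pow_add, C.ymod (a := 10 * m.1 + 10 * n + 10 * m.1) (b := (9 * m.1 + 10 * n) % 11) (by omega)]
  have h2 : Rel (g * x * g⁻¹) (g * P * g⁻¹) (g * t * g⁻¹) := h.map (MulAut.conj g).toMonoidHom
  have hmap : (closure {x, P, t}).map (MulAut.conj g).toMonoidHom =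
      closure {g * x * g⁻¹, g * P * g⁻¹, g * t * g⁻¹} := map_closure3 _ _ _ _
  rw [hgP, hgt] at h2 hmap
  set t' := P ^ ((9 * m.1 + 10 * n) % 11) * d * k with ht'
  have hmm : P ^ m.1 * X * (P ^ m.1)⁻¹ = X ^ (16 ^ m.1) := by
    have := C.conj_pow' m.1 1
    rwa [pow_one, mul_one] at this
  refine ⟨g, k, hk, hkk, (9 * m.1 + 10 * n) % 11, Nat.mod_lt _ (by norm_num), ?_, ?_⟩
  · rcases hm with hm | hm
    · have h3 : g * x * g⁻¹ = X := by
        rw [hxa, C.xmod (a := a) (b := 16 ^ m.1) hm.symm, ← hmm, hg]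
        group
      rw [h3] at h2
      exact h2.xt
    · have h3 : g * x * g⁻¹ = X⁻¹ := by
        have h4 : x = (X ^ (16 ^ m.1))⁻¹ := by
          rw [eq_inv_iff_mul_eq_one, hxa, ← pow_add]
          have hm' : 22 * 16 ^ m.1 % 23 = a % 23 := hm
          have h5 : (a + 16 ^ m.1) % 23 = 0 := by omega
          rw [C.xmod (a := a + 16 ^ m.1) (b := 0) h5, pow_zero]
        rw [h4, ← hmm, hg]
        group
      rw [h3] at h2
      have h4 := h2.xt
      have h5 := h2.t_inv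
      have h6 : (X * t') ^ 3 = X * ((X⁻¹ * t') ^ 3)⁻¹ * X⁻¹ := by
        rw [← inv_pow, mul_inv_rev, inv_inv, h5, ← conj_pow]
        congr 1
        group
      rw [h6, h4, inv_one, mul_one, mul_inv_cancel]
  · rw [hmap]
    rcases hm with hm | hm
    · have h3 : g * x * g⁻¹ = X := by
        rw [hxa, C.xmod (a := a) (b := 16 ^ m.1) hm.symm, ← hmm, hg]
        group
      rw [h3]
    · have h3 : g * x * g⁻¹ = X⁻¹ := by
        have h4 : x = (X ^ (16 ^ m.1))⁻¹ := by
          rw [eq_inv_iff_mul_eq_one, hxa, ← pow_add]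
          have hm' : 22 * 16 ^ m.1 % 23 = a % 23 := hm
          have h5 : (a + 16 ^ m.1) % 23 = 0 := by omega
          rw [C.xmod (a := a + 16 ^ m.1) (b := 0) h5, pow_zero]
        rw [h4, ← hmm, hg]
        group
      rw [h3, closure_inv3]

/-- The conclusion of the reduction. -/
def Concl (X P d : G) (K : Subgroup G) (x y t : G) : Prop :=
  ∃ g : G, ∃ k ∈ K, k * k = 1 ∧ ∃ j : ℕ, j < 11 ∧ (X * (P ^ j * d * k)) ^ 3 = 1 ∧
    (closure {x, y, t}).map (MulAut.conj g).toMonoidHom = closure {X, P, P ^ j * d * k}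

omit C in
theorem Concl.of_conj {x y t c : G} (h : Concl X P d K (c * x * c⁻¹) (c * y * c⁻¹) (c * t * c⁻¹)) :
    Concl X P d K x y t := by
  obtain ⟨g, k, hk, hkk, j, hj, h3, hm⟩ := h
  refine ⟨g * c, k, hk, hkk, j, hj, h3, ?_⟩
  rw [← hm, ← map_conj_closure, ← map_conj_mul]

/-- Step B -/
theorem stepB {x y t : G} (h : Rel x y t) (hxX : x ∈ zpowers X) (hx : x ≠ 1) (hy : y ∈ zpowers P) :
    Concl X P d K x y t := by
  obtain ⟨a, ha, hxa⟩ := C.pow_ne hxX hx
  obtain ⟨j, hj⟩ := C.pow_of_P hy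
  have h1 := C.norm_P h.yx hxa ha hj
  subst h1
  exact C.stepC h hxX hx

theorem mem_norm_P : P ∈ normalizer (zpowers X : Set G) := by
  rw [mem_normalizer_iff_map_conj_eq, MonoidHom.map_zpowers]
  show zpowers (P * X * P⁻¹) = zpowers X
  rw [C.yx]
  apply le_antisymm
  · rw [zpowers_le]; exact pow_mem (mem_zpowers X) _
  · rw [zpowers_le]
    refine mem_zpowers_iff.2 ⟨13, ?_⟩
    have h1 : (X ^ 16) ^ 13 = X := by
      rw [← pow_mul, C.xmod (a := 16 * 13) (b := 1) (by norm_num), pow_one]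
    exact_mod_cast h1

/-- Step A -/
theorem stepA [Finite G] (h11 : ¬ 11 ^ 2 ∣ Nat.card G) {x y t : G} (h : Rel x y t) (hxX : x ∈ zpowers X)
    (hx : x ≠ 1) : Concl X P d K x y t := by
  obtain ⟨a, ha, hxa⟩ := C.pow_ne hxX hx
  have : Fact (Nat.Prime 11) := ⟨by norm_num⟩
  have : Fact (Nat.Prime 23) := ⟨by norm_num⟩
  have hordx : orderOf x = 23 := orderOf_eq_prime h.x23 hx
  have hzx : zpowers x = zpowers X := by
    apply Subgroup.eq_of_le_of_card_ge
    · rw [zpowers_le]; exact hxX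
    · rw [Nat.card_zpowers, Nat.card_zpowers, hordx, C.ordX]
  have hy1 : y ≠ 1 := by
    intro h0
    have h1 := h.yx
    rw [h0, one_mul, inv_one, mul_one] at h1
    have h2 : x ^ 15 = 1 := by
      have h3 : x ^ 15 * x = x := by rw [← pow_succ]; exact h1.symm
      exact mul_eq_right.1 h3
    have h3 := orderOf_dvd_of_pow_eq_one h2
    rw [hordx] at h3
    exact absurd h3 (by norm_num)
  have hordy : orderOf y = 11 := orderOf_eq_prime h.y11 hy1
  have hyN : y ∈ normalizer (zpowers X : Set G) := by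
    rw [mem_normalizer_iff_map_conj_eq, ← hzx, MonoidHom.map_zpowers]
    show zpowers (y * x * y⁻¹) = zpowers x
    rw [h.yx]
    apply le_antisymm
    · rw [zpowers_le]; exact pow_mem (mem_zpowers x) _
    · rw [zpowers_le]
      refine mem_zpowers_iff.2 ⟨13, ?_⟩
      have h1 : (x ^ 16) ^ 13 = x := by
        rw [← pow_mul, h.xmod (a := 16 * 13) (b := 1) (by norm_num), pow_one]
      exact_mod_cast h1
  obtain ⟨g, hgN, hg⟩ := conj_prime_in h11 _ hyN C.mem_norm_P hordy C.ordP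
  apply Concl.of_conj (c := g)
  have h1 : Rel (g * x * g⁻¹) (g * y * g⁻¹) (g * t * g⁻¹) := h.map (MulAut.conj g).toMonoidHom
  refine C.stepB h1 ?_ ?_ hg
  · exact (mem_normalizer_iff.1 hgN x).1 hxX
  · intro h0
    rw [mul_inv_eq_one, mul_eq_left] at h0
    exact hx h0

/-- **The reduction.** -/
theorem red [Finite G] (h11 : ¬ 11 ^ 2 ∣ Nat.card G) (h23 : ¬ 23 ^ 2 ∣ Nat.card G) {x y t : G} (h : Rel x y t)
    (hx : x ≠ 1) : Concl X P d K x y t := by
  have : Fact (Nat.Prime 23) := ⟨by norm_num⟩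
  have hordx : orderOf x = 23 := orderOf_eq_prime h.x23 hx
  obtain ⟨g, hg⟩ := conj_prime h23 hordx C.ordX
  apply Concl.of_conj (c := g)
  have h1 : Rel (g * x * g⁻¹) (g * y * g⁻¹) (g * t * g⁻¹) := h.map (MulAut.conj g).toMonoidHom
  refine C.stepA h11 h1 hg ?_
  intro h0
  rw [mul_inv_eq_one, mul_eq_left] at h0
  exact hx h0

/-- **The normaliser.** -/
theorem normalizer_eq [Finite G] (h11 : ¬ 11 ^ 2 ∣ Nat.card G) (h23 : ¬ 23 ^ 2 ∣ Nat.card G) {s : G}
    (hs : s ∈ K) (h : Rel X P (d * s)) (hc : Nat.card (closure {X, P, d * s}) = 6072)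
    (hk : ∀ k ∈ K, k * s = s * k → k ∈ normalizer (zpowers X : Set G) → k = 1) :
    normalizer (closure {X, P, d * s} : Set G) = closure {X, P, d * s} := by
  have : Fact (Nat.Prime 11) := ⟨by norm_num⟩
  have : Fact (Nat.Prime 23) := ⟨by norm_num⟩
  set H : Subgroup G := closure {X, P, d * s} with hH
  have hX : X ∈ H := subset_closure (by simp)
  have hP : P ∈ H := subset_closure (by simp)
  have ht : d * s ∈ H := subset_closure (by simp)
  refine le_antisymm ?_ le_normalizer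
  -- an element of the normaliser normalising `⟨X⟩` and `⟨P⟩`
  have key : ∀ g ∈ normalizer (H : Set G), g * X * g⁻¹ ∈ zpowers X → g * P * g⁻¹ ∈ zpowers P → g ∈ H := by
    intro g hg hgX hgP
    obtain ⟨a, ha, hxa⟩ := C.pow_ne hgX (by
      intro h0
      rw [mul_inv_eq_one, mul_eq_left] at h0
      exact C.x_ne h0)
    obtain ⟨j, hj⟩ := C.pow_of_P hgP
    have h1 : (g * P * g⁻¹) * (g * X * g⁻¹) * (g * P * g⁻¹)⁻¹ = (g * X * g⁻¹) ^ 16 := by
      rw [conj_pow, ← C.yx]
      group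
    have h2 := C.norm_P h1 hxa ha hj
    have h3 : g * P = P * g := by
      rw [mul_inv_eq_iff_eq_mul] at h2
      exact h2
    obtain ⟨k, hkK, n, hn⟩ := C.cent g h3
    have hPn : P ^ n ∈ H := pow_mem hP n
    have hkN : k ∈ normalizer (H : Set G) := by
      have h4 : k = (P ^ n)⁻¹ * g := by rw [hn, inv_mul_cancel_left]
      rw [h4]
      exact mul_mem (inv_mem (le_normalizer hPn)) hg
    have hkX : k ∈ normalizer (zpowers X : Set G) := by
      have h4 : k = (P ^ n)⁻¹ * g := by rw [hn, inv_mul_cancel_left]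
      rw [h4]
      refine mul_mem (inv_mem (pow_mem C.mem_norm_P n)) ?_
      rw [mem_normalizer_iff_map_conj_eq, MonoidHom.map_zpowers]
      show zpowers (g * X * g⁻¹) = zpowers X
      apply Subgroup.eq_of_le_of_card_ge
      · rw [zpowers_le]; exact hgX
      · rw [Nat.card_zpowers, Nat.card_zpowers, C.ordX,
          show g * X * g⁻¹ = (MulAut.conj g) X from rfl, MulEquiv.orderOf_eq, C.ordX]
    have hs2 : s * s = 1 := by
      have h5 := h.t2
      have h6 : d * s * (d * s) = s * s := by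
        calc d * s * (d * s) = d * (s * d) * s := by simp only [mul_assoc]
          _ = d * (d * s) * s := by rw [C.kd s hs]
          _ = s * s := by rw [← mul_assoc, C.dd, one_mul]
      rw [h6] at h5
      exact h5
    have hks : k * s = s * k := by
      have h4 : k * (d * s) * k⁻¹ ∈ H := (mem_normalizer_iff.1 hkN _).1 ht
      have h5 : d * s * (k * (d * s) * k⁻¹) = s * (k * s * k⁻¹) := by
        calc d * s * (k * (d * s) * k⁻¹) = d * (s * (k * d)) * (s * k⁻¹) := by simp only [mul_assoc]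
          _ = d * (s * d) * k * (s * k⁻¹) := by rw [C.kd k hkK]; simp only [mul_assoc]
          _ = (d * d) * s * k * (s * k⁻¹) := by rw [C.kd s hs]; simp only [mul_assoc]
          _ = s * (k * s * k⁻¹) := by rw [C.dd, one_mul]; simp only [mul_assoc]
      have h6 : s * (k * s * k⁻¹) ∈ H := h5 ▸ mul_mem ht h4
      have h7 : s * (k * s * k⁻¹) ∈ K := mul_mem hs (mul_mem (mul_mem hkK hs) (inv_mem hkK))
      obtain ⟨m, hm⟩ := h.cent_y hc h6 (C.kP _ h7)
      have h8 : s * (k * s * k⁻¹) = 1 := by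
        rw [← orderOf_eq_one_iff]
        apply Nat.eq_one_of_dvd_coprimes C.cop
        · rw [← Subgroup.orderOf_mk _ h7]
          exact orderOf_dvd_natCard _
        · rw [hm]
          apply orderOf_dvd_of_pow_eq_one
          rw [← pow_mul, mul_comm, pow_mul, C.y11, one_pow]
      have h9 : k * s * k⁻¹ = s := by
        have h10 : k * s * k⁻¹ = s⁻¹ := eq_inv_of_mul_eq_one_right h8
        rw [h10]
        exact inv_eq_of_mul_eq_one_left hs2
      rwa [mul_inv_eq_iff_eq_mul] at h9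
    have h1' := hk k hkK hks hkX
    rw [hn, h1', mul_one]
    exact hPn
  -- reduction to `⟨X⟩`
  have key2 : ∀ g ∈ normalizer (H : Set G), g * X * g⁻¹ ∈ zpowers X → g ∈ H := by
    intro g hg hgX
    have hgN : g ∈ normalizer (zpowers X : Set G) := by
      rw [mem_normalizer_iff_map_conj_eq, MonoidHom.map_zpowers]
      show zpowers (g * X * g⁻¹) = zpowers X
      apply Subgroup.eq_of_le_of_card_ge
      · rw [zpowers_le]; exact hgX
      · rw [Nat.card_zpowers, Nat.card_zpowers, C.ordX,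
          show g * X * g⁻¹ = (MulAut.conj g) X from rfl, MulEquiv.orderOf_eq, C.ordX]
    have h1 : g * P * g⁻¹ ∈ H ⊓ normalizer (zpowers X : Set G) :=
      mem_inf.2 ⟨(mem_normalizer_iff.1 hg _).1 hP, mul_mem (mul_mem hgN C.mem_norm_P) (inv_mem hgN)⟩
    obtain ⟨c, hcc, hc2⟩ := conj_prime_in h11 (H ⊓ normalizer (zpowers X : Set G)) h1 (mem_inf.2 ⟨hP, C.mem_norm_P⟩)
      (by rw [show g * P * g⁻¹ = (MulAut.conj g) P from rfl, MulEquiv.orderOf_eq, C.ordP]) C.ordP
    obtain ⟨hcH, hcN⟩ := mem_inf.1 hcc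
    have h2 : c * g ∈ H := by
      apply key
      · exact mul_mem (le_normalizer hcH) hg
      · have h3 := (mem_normalizer_iff.1 (mul_mem hcN hgN) X).1 (mem_zpowers X)
        exact h3
      · have h3 : c * g * P * (c * g)⁻¹ = c * (g * P * g⁻¹) * c⁻¹ := by group
        rw [h3]
        exact hc2
    have h3 : g = c⁻¹ * (c * g) := by rw [inv_mul_cancel_left]
    rw [h3]
    exact mul_mem (inv_mem hcH) h2
  intro g hg
  have h1 : g * X * g⁻¹ ∈ H := (mem_normalizer_iff.1 hg _).1 hX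
  obtain ⟨c, hcH, hc2⟩ := conj_prime_in h23 H h1 hX
    (by rw [show g * X * g⁻¹ = (MulAut.conj g) X from rfl, MulEquiv.orderOf_eq, C.ordX]) C.ordX
  have h2 : c * g ∈ H := by
    apply key2
    · exact mul_mem (le_normalizer hcH) hg
    · have h3 : c * g * X * (c * g)⁻¹ = c * (g * X * g⁻¹) * c⁻¹ := by group
      rw [h3]
      exact hc2
  have h3 : g = c⁻¹ * (c * g) := by rw [inv_mul_cancel_left]
  rw [h3]
  exact mul_mem (inv_mem hcH) h2

end Conf

end Cfsg.Agent.H995.LB
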