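import Mathlib

/-!
# A presentation of `PSL(2, 23)`: the upper bound (helper995, for S5524)

`Rel x y t` : the relations; `card_le` : `⟨x, y, t⟩` has order at most `6072`; if it has order `6072`
then every element has a unique normal form, and the centralizer of `y` in it is `⟨y⟩`.
-/

set_option autoImplicit false

namespace Cfsg.Agent.H995.LB

open Subgroup

/-- The relations of `PSL(2, 23)`. -/
structure Rel {G : Type*} [Group G] (x y t : G) : Prop where
  x23 : x ^ 23 = 1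
  y11 : y ^ 11 = 1
  yx : y * x * y⁻¹ = x ^ 16
  t2 : t * t = 1
  ty : t * y * t = y⁻¹
  xt : (x * t) ^ 3 = 1

namespace Rel

variable {G : Type*} [Group G] {x y t : G} (h : Rel x y t)

include h

theorem t_inv : t⁻¹ = t := inv_eq_of_mul_eq_one_left h.t2

theorem xmod {a b : ℕ} (hab : a % 23 = b % 23) : x ^ a = x ^ b := by
  rw [← Nat.mod_add_div a 23, ← Nat.mod_add_div b 23, hab, pow_add, pow_add, pow_mul, pow_mul, h.x23,
    one_pow, one_pow]

theorem ymod {a b : ℕ} (hab : a % 11 = b % 11) : y ^ a = y ^ b := by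
  rw [← Nat.mod_add_div a 11, ← Nat.mod_add_div b 11, hab, pow_add, pow_add, pow_mul, pow_mul, h.y11,
    one_pow, one_pow]

/-- `y^m x^n = x^(16^m n) y^m` -/
theorem yx_pow (m n : ℕ) : y ^ m * x ^ n = x ^ (16 ^ m * n) * y ^ m := by
  have h1 : ∀ n, y * x ^ n = x ^ (16 * n) * y := by
    intro n
    have h2 : (y * x * y⁻¹) ^ n = x ^ (16 * n) := by rw [h.yx, ← pow_mul]
    rw [conj_pow] at h2
    rw [← h2]
    group
  induction m generalizing n with
  | zero => simp
  | succ m ih =>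
    rw [pow_succ, mul_assoc, h1, ← mul_assoc, ih, mul_assoc, ← pow_succ,
      show 16 ^ m * (16 * n) = 16 ^ (m + 1) * n by ring]

/-- `x^n y^m = y^m x^(16^(10 m) n)` -/
theorem xy_pow (m n : ℕ) : x ^ n * y ^ m = y ^ m * x ^ (16 ^ (10 * m) * n) := by
  rw [h.yx_pow m, ← mul_assoc (16 ^ m), ← pow_add]
  congr 1
  apply h.xmod
  rw [show m + 10 * m = 11 * m by ring, pow_mul, Nat.mul_mod, Nat.pow_mod, show (16 ^ 11) % 23 = 1 by norm_num,
    one_pow, ← Nat.mul_mod, one_mul]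

theorem ty_pow (m : ℕ) : t * y ^ m = y ^ (10 * m) * t := by
  have h1 : t * y = y ^ 10 * t := by
    have h2 : y ^ 10 = y⁻¹ := by
      rw [eq_inv_iff_mul_eq_one, ← pow_succ]; exact h.y11
    rw [h2, ← h.ty, mul_assoc, h.t2, mul_one]
  induction m with
  | zero => simp
  | succ m ih =>
    rw [pow_succ, ← mul_assoc, ih, mul_assoc, h1, ← mul_assoc, ← pow_add]
    congr 2

theorem txt : t * x * t = x ^ 22 * t * x ^ 22 := by
  have h1 : x ^ 22 = x⁻¹ := by
    rw [eq_inv_iff_mul_eq_one, ← pow_succ]; exact h.x23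
  have h2 : x * t * (x * t) * (x * t) = 1 := by
    have := h.xt
    rwa [pow_succ, pow_two] at this
  have h3 : t * x * t = x⁻¹ * (x * t * (x * t) * (x * t)) * t⁻¹ * x⁻¹ := by group
  rw [h3, h2, h1, h.t_inv, mul_one]

/-- `t x^(16^m) t` -/
theorem txt_pos (m : ℕ) : t * x ^ (16 ^ m) * t =
    x ^ (16 ^ (10 * m) * 22) * y ^ (9 * m) * t * x ^ (16 ^ (10 * m) * 22) := by
  -- `x^(16^m) = y^m x y^(10 m)`
  have h1 : x ^ (16 ^ m) = y ^ m * x * y ^ (10 * m) := by
    have h2 := h.yx_pow m 1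
    rw [pow_one, mul_one] at h2
    rw [h2, mul_assoc, ← pow_add, h.ymod (a := m + 10 * m) (b := 0) (by omega), pow_zero, mul_one]
  have h3 : y ^ (10 * m) * t = t * y ^ m := (h.ty_pow m).symm
  calc t * x ^ (16 ^ m) * t = t * y ^ m * x * (y ^ (10 * m) * t) := by rw [h1]; simp only [mul_assoc]
    _ = (y ^ (10 * m) * t) * x * (y ^ (10 * m) * t) := by rw [h.ty_pow m]
    _ = (y ^ (10 * m) * t) * x * (t * y ^ m) := congrArg (fun w => (y ^ (10 * m) * t) * x * w) h3
    _ = y ^ (10 * m) * (t * x * t) * y ^ m := by simp only [mul_assoc]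
    _ = (y ^ (10 * m) * x ^ 22) * t * (x ^ 22 * y ^ m) := by rw [h.txt]; simp only [mul_assoc]
    _ = x ^ (16 ^ (10 * m) * 22) * (y ^ (10 * m) * (t * y ^ m)) * x ^ (16 ^ (10 * m) * 22) := by
      rw [h.yx_pow, h.xy_pow m 22]; simp only [mul_assoc]
    _ = _ := by
      rw [h.ty_pow m, ← mul_assoc (y ^ (10 * m)), ← pow_add,
        h.ymod (a := 10 * m + 10 * m) (b := 9 * m) (by omega)]
      simp only [mul_assoc]

theorem inv_x (n : ℕ) : (x ^ n)⁻¹ = x ^ (22 * n) := by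
  rw [inv_eq_iff_mul_eq_one, ← pow_add, h.xmod (a := n + 22 * n) (b := 0) (by omega), pow_zero]

theorem inv_y (n : ℕ) : (y ^ n)⁻¹ = y ^ (10 * n) := by
  rw [inv_eq_iff_mul_eq_one, ← pow_add, h.ymod (a := n + 10 * n) (b := 0) (by omega), pow_zero]

/-- `t x^a t` for `a` prime to `23`. -/
theorem txt_exists {a : ℕ} (ha : a % 23 ≠ 0) : ∃ b c d : ℕ, t * x ^ a * t = x ^ b * y ^ c * t * x ^ d := by
  have h1 : ∀ a : Fin 23, a ≠ 0 → ∃ m : Fin 11, (16 ^ m.1 % 23 = a.1 ∨ 22 * 16 ^ m.1 % 23 = a.1) := by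
    decide
  obtain ⟨m, hm⟩ := h1 ⟨a % 23, Nat.mod_lt _ (by norm_num)⟩ (fun h => ha (congrArg Fin.val h))
  rcases hm with hm | hm
  · have h2 : x ^ a = x ^ (16 ^ m.1) := h.xmod hm.symm
    rw [h2]
    exact ⟨_, _, _, h.txt_pos m.1⟩
  · have h2 : x ^ a = (x ^ (16 ^ m.1))⁻¹ := by rw [h.inv_x]; exact h.xmod hm.symm
    have h3 : t * (x ^ (16 ^ m.1))⁻¹ * t = (t * x ^ (16 ^ m.1) * t)⁻¹ := by
      rw [mul_inv_rev, mul_inv_rev, h.t_inv, mul_assoc]
    rw [h2, h3, h.txt_pos]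
    set e := 16 ^ (10 * m.1) * 22
    refine ⟨22 * e, 10 * (10 * (9 * m.1)), 22 * e, ?_⟩
    rw [mul_inv_rev, mul_inv_rev, mul_inv_rev, h.t_inv, h.inv_x, h.inv_y, ← mul_assoc t, h.ty_pow]
    simp only [mul_assoc]

/-- The normal form. -/
def nf (x y t : G) : (Fin 23 × Fin 11) ⊕ (Fin 23 × Fin 11 × Fin 23) → G
  | .inl (a, b) => x ^ a.1 * y ^ b.1
  | .inr (a, b, c) => x ^ a.1 * y ^ b.1 * t * x ^ c.1

omit h in
theorem inl_mem (h : Rel x y t) (a b : ℕ) : x ^ a * y ^ b ∈ Set.range (nf x y t) :=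
  ⟨.inl (⟨a % 23, Nat.mod_lt _ (by norm_num)⟩, ⟨b % 11, Nat.mod_lt _ (by norm_num)⟩), by
    show x ^ (a % 23) * y ^ (b % 11) = _
    rw [h.xmod (Nat.mod_mod a 23), h.ymod (Nat.mod_mod b 11)]⟩

omit h in
theorem inr_mem (h : Rel x y t) (a b c : ℕ) : x ^ a * y ^ b * t * x ^ c ∈ Set.range (nf x y t) :=
  ⟨.inr (⟨a % 23, Nat.mod_lt _ (by norm_num)⟩, ⟨b % 11, Nat.mod_lt _ (by norm_num)⟩,
    ⟨c % 23, Nat.mod_lt _ (by norm_num)⟩), by
    show x ^ (a % 23) * y ^ (b % 11) * t * x ^ (c % 23) = _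
    rw [h.xmod (Nat.mod_mod a 23), h.ymod (Nat.mod_mod b 11), h.xmod (Nat.mod_mod c 23)]⟩

theorem mul_mem {s g : G} (hs : s = x ∨ s = y ∨ s = t) (hg : g ∈ Set.range (nf x y t)) :
    s * g ∈ Set.range (nf x y t) := by
  obtain ⟨i, rfl⟩ := hg
  rcases i with ⟨a, b⟩ | ⟨a, b, c⟩
  · show s * (x ^ a.1 * y ^ b.1) ∈ _
    rcases hs with rfl | rfl | rfl
    · rw [← mul_assoc, ← pow_succ']
      exact inl_mem h _ _
    · have e : s * (x ^ a.1 * s ^ b.1) = (s ^ 1 * x ^ a.1) * s ^ b.1 := by rw [pow_one, mul_assoc]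
      rw [e, h.yx_pow, mul_assoc, ← pow_add]
      exact inl_mem h _ _
    · rw [h.xy_pow, ← mul_assoc, h.ty_pow]
      have := inr_mem h 0 (10 * b.1) (16 ^ (10 * b.1) * a.1)
      rwa [pow_zero, one_mul] at this
  · show s * (x ^ a.1 * y ^ b.1 * t * x ^ c.1) ∈ _
    rcases hs with rfl | rfl | rfl
    · rw [← mul_assoc, ← mul_assoc, ← mul_assoc, ← pow_succ']
      exact inr_mem h _ _ _
    · have e : s * (x ^ a.1 * s ^ b.1 * t * x ^ c.1) = (s ^ 1 * x ^ a.1) * s ^ b.1 * t * x ^ c.1 := by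
        rw [pow_one]; simp only [mul_assoc]
      rw [e, h.yx_pow, mul_assoc (x ^ _), ← pow_add]
      exact inr_mem h _ _ _
    · by_cases ha : a.1 % 23 = 0
      · have h0 : x ^ a.1 = 1 := (h.xmod (a := a.1) (b := 0) (by omega)).trans (pow_zero x)
        have e : s * (x ^ a.1 * y ^ b.1 * s * x ^ c.1) = (s * y ^ b.1) * s * x ^ c.1 := by
          rw [h0, one_mul]; simp only [mul_assoc]
        rw [e, h.ty_pow, mul_assoc (y ^ _), h.t2, mul_one, h.yx_pow]
        exact inl_mem h _ _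
      · obtain ⟨b', c', d', h1⟩ := h.txt_exists ha
        have h3 : y ^ (10 * b.1) * s = s * y ^ b.1 := (h.ty_pow b.1).symm
        have h4 : s * y ^ b.1 * s = y ^ (10 * b.1) := by rw [h.ty_pow, mul_assoc, h.t2, mul_one]
        have e : s * (x ^ a.1 * y ^ b.1 * s * x ^ c.1) =
            (s * x ^ a.1 * s) * (s * y ^ b.1 * s) * x ^ c.1 := by
          calc s * (x ^ a.1 * y ^ b.1 * s * x ^ c.1) = s * x ^ a.1 * (1 * y ^ b.1) * s * x ^ c.1 := by
                rw [one_mul]; simp only [mul_assoc]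
            _ = _ := by rw [← h.t2]; simp only [mul_assoc]
        rw [e, h1, h4]
        have e2 : x ^ b' * y ^ c' * s * x ^ d' * y ^ (10 * b.1) * x ^ c.1 =
            x ^ b' * (y ^ c' * (s * y ^ (10 * b.1))) * x ^ (16 ^ (10 * (10 * b.1)) * d' + c.1) := by
          calc x ^ b' * y ^ c' * s * x ^ d' * y ^ (10 * b.1) * x ^ c.1 =
                x ^ b' * (y ^ c' * s) * (x ^ d' * y ^ (10 * b.1)) * x ^ c.1 := by simp only [mul_assoc]
            _ = _ := by rw [h.xy_pow (10 * b.1) d', pow_add]; simp only [mul_assoc]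
        rw [e2, h.ty_pow, ← mul_assoc (y ^ c'), ← pow_add, ← mul_assoc (x ^ b')]
        exact inr_mem h _ _ _

theorem closure_le : (closure {x, y, t} : Set G) ⊆ Set.range (nf x y t) := by
  intro g hg
  have hfin : ∀ s : G, (s = x ∨ s = y ∨ s = t) → ∃ n : ℕ, s⁻¹ = s ^ n := by
    rintro s (rfl | rfl | rfl)
    · exact ⟨22, by have := h.inv_x 1; rwa [pow_one, mul_one] at this⟩
    · exact ⟨10, by have := h.inv_y 1; rwa [pow_one, mul_one] at this⟩
    · exact ⟨1, by rw [pow_one]; exact h.t_inv⟩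
  have hpow : ∀ s : G, (s = x ∨ s = y ∨ s = t) → ∀ n : ℕ, ∀ g ∈ Set.range (nf x y t),
      s ^ n * g ∈ Set.range (nf x y t) := by
    intro s hs n
    induction n with
    | zero => intro g hg; simpa using hg
    | succ n ih => intro g hg; rw [pow_succ, mul_assoc]; exact ih _ (h.mul_mem hs hg)
  have hone : (1 : G) ∈ Set.range (nf x y t) := by
    have := inl_mem h 0 0
    rwa [pow_zero, pow_zero, one_mul] at this
  have key : ∀ g ∈ closure {x, y, t}, ∀ r ∈ Set.range (nf x y t), g * r ∈ Set.range (nf x y t) := by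
    intro g hg
    induction hg using closure_induction with
    | mem s hs => intro r hr; exact h.mul_mem (by simpa using hs) hr
    | one => intro r hr; rwa [one_mul]
    | mul a b _ _ iha ihb => intro r hr; rw [mul_assoc]; exact iha _ (ihb _ hr)
    | inv a ha iha =>
      intro r hr
      -- the left multiplication by `a` is injective on a finite set
      have hfinS : (Set.range (nf x y t)).Finite := Set.finite_range _
      have hinj : Set.InjOn (fun r => a * r) (Set.range (nf x y t)) := fun _ _ _ _ h => mul_left_cancel h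
      have himg : (fun r => a * r) '' Set.range (nf x y t) = Set.range (nf x y t) := by
        apply Set.eq_of_subset_of_ncard_le
        · rintro _ ⟨r, hr, rfl⟩
          exact iha r hr
        · rw [hinj.ncard_image]
        · exact hfinS
      have h1 : r ∈ (fun r => a * r) '' Set.range (nf x y t) := by rw [himg]; exact hr
      obtain ⟨r', hr', h2⟩ := h1
      have h3 : a⁻¹ * r = r' := by rw [← h2]; group
      rw [h3]
      exact hr'
  have := key g hg 1 hone
  rwa [mul_one] at this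

theorem finite : Finite (closure {x, y, t}) :=
  ((Set.finite_range (nf x y t)).subset h.closure_le).to_subtype

theorem card_le : Nat.card (closure {x, y, t}) ≤ 6072 := by
  have h1 : Nat.card (closure {x, y, t}) ≤ (Set.range (nf x y t)).ncard :=
    Set.ncard_le_ncard h.closure_le (Set.finite_range _)
  have h2 : (Set.range (nf x y t)).ncard ≤ Nat.card ((Fin 23 × Fin 11) ⊕ (Fin 23 × Fin 11 × Fin 23)) := by
    rw [← Set.image_univ, ← Set.ncard_univ]
    exact Set.ncard_image_le Set.finite_univ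
  have h3 : Nat.card ((Fin 23 × Fin 11) ⊕ (Fin 23 × Fin 11 × Fin 23)) = 6072 := by
    rw [Nat.card_eq_fintype_card]
    simp
  omega

omit h in
theorem nf_mem (i : (Fin 23 × Fin 11) ⊕ (Fin 23 × Fin 11 × Fin 23)) : nf x y t i ∈ closure {x, y, t} := by
  have hx : x ∈ closure {x, y, t} := subset_closure (by simp)
  have hy : y ∈ closure {x, y, t} := subset_closure (by simp)
  have ht : t ∈ closure {x, y, t} := subset_closure (by simp)
  rcases i with ⟨a, b⟩ | ⟨a, b, c⟩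
  · exact Subgroup.mul_mem _ (Subgroup.pow_mem _ hx _) (Subgroup.pow_mem _ hy _)
  · exact Subgroup.mul_mem _ (Subgroup.mul_mem _ (Subgroup.mul_mem _ (Subgroup.pow_mem _ hx _)
      (Subgroup.pow_mem _ hy _)) ht) (Subgroup.pow_mem _ hx _)

theorem nf_injective (hc : Nat.card (closure {x, y, t}) = 6072) : Function.Injective (nf x y t) := by
  have := h.finite
  have h3 : Nat.card ((Fin 23 × Fin 11) ⊕ (Fin 23 × Fin 11 × Fin 23)) = 6072 := by
    rw [Nat.card_eq_fintype_card]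
    simp
  let f : (Fin 23 × Fin 11) ⊕ (Fin 23 × Fin 11 × Fin 23) → closure {x, y, t} := fun i => ⟨nf x y t i, nf_mem i⟩
  have hs : Function.Surjective f := by
    rintro ⟨g, hg⟩
    obtain ⟨i, hi⟩ := h.closure_le hg
    exact ⟨i, Subtype.ext hi⟩
  have hb : Function.Bijective f := (Nat.bijective_iff_surjective_and_card f).2 ⟨hs, by rw [h3, hc]⟩
  intro i j hij
  exact hb.1 (Subtype.ext hij)

/-- The centralizer of `y` in `⟨x, y, t⟩`. -/
theorem cent_y (hc : Nat.card (closure {x, y, t}) = 6072) {g : G} (hg : g ∈ closure {x, y, t})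
    (hgy : g * y = y * g) : ∃ n : ℕ, g = y ^ n := by
  have hinj := h.nf_injective hc
  obtain ⟨i, rfl⟩ := h.closure_le hg
  have hyi : y * nf x y t i * y⁻¹ = nf x y t i := by rw [← hgy]; group
  rcases i with ⟨a, b⟩ | ⟨a, b, c⟩
  · have h1 : y * (x ^ a.1 * y ^ b.1) * y⁻¹ = x ^ (16 * a.1) * y ^ b.1 := by
      have h2 := h.yx_pow 1 a.1
      rw [pow_one, pow_one] at h2
      calc y * (x ^ a.1 * y ^ b.1) * y⁻¹ = (y * x ^ a.1) * y ^ b.1 * y⁻¹ := by simp only [mul_assoc]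
        _ = x ^ (16 * a.1) * y ^ b.1 := by rw [h2]; group
    have h3 : x ^ (16 * a.1) * y ^ b.1 = x ^ a.1 * y ^ b.1 := h1.symm.trans hyi
    have h4 : nf x y t (.inl (⟨16 * a.1 % 23, Nat.mod_lt _ (by norm_num)⟩, b)) = nf x y t (.inl (a, b)) := by
      show x ^ (16 * a.1 % 23) * y ^ b.1 = x ^ a.1 * y ^ b.1
      rw [h.xmod (Nat.mod_mod _ 23)]
      exact h3
    have h5 := hinj h4
    have h6 : 16 * a.1 % 23 = a.1 := congrArg (fun i : (Fin 23 × Fin 11) ⊕ (Fin 23 × Fin 11 × Fin 23) =>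
      match i with | .inl (a, _) => a.1 | .inr _ => 0) h5
    have ha := a.2
    have h7 : a.1 = 0 := by omega
    exact ⟨b.1, by show x ^ a.1 * y ^ b.1 = _; rw [h7, pow_zero, one_mul]⟩
  · exfalso
    have hyt : t * y⁻¹ = y * t := by
      have := h.ty
      rw [← this]
      rw [← mul_assoc, ← mul_assoc, h.t2, one_mul]
    have h1 : y * (x ^ a.1 * y ^ b.1 * t * x ^ c.1) * y⁻¹ =
        x ^ (16 * a.1) * y ^ (b.1 + 2) * t * x ^ (16 * c.1) := by
      have h2 := h.yx_pow 1 a.1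
      rw [pow_one, pow_one] at h2
      have h3 := h.yx_pow 1 c.1
      rw [pow_one, pow_one] at h3
      have h4 : x ^ c.1 * y⁻¹ = y⁻¹ * x ^ (16 * c.1) := by
        calc x ^ c.1 * y⁻¹ = y⁻¹ * (y * x ^ c.1) * y⁻¹ := by group
          _ = y⁻¹ * x ^ (16 * c.1) := by rw [h3]; group
      calc y * (x ^ a.1 * y ^ b.1 * t * x ^ c.1) * y⁻¹ =
            (y * x ^ a.1) * y ^ b.1 * t * (x ^ c.1 * y⁻¹) := by simp only [mul_assoc]
        _ = x ^ (16 * a.1) * (y * y ^ b.1) * (t * y⁻¹) * x ^ (16 * c.1) := by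
            rw [h2, h4]; simp only [mul_assoc]
        _ = x ^ (16 * a.1) * (y * y ^ b.1 * y) * t * x ^ (16 * c.1) := by rw [hyt]; simp only [mul_assoc]
        _ = _ := by rw [← pow_succ', ← pow_succ]
    have h3 := h1.symm.trans hyi
    have h4 : nf x y t (.inr (⟨16 * a.1 % 23, Nat.mod_lt _ (by norm_num)⟩,
        ⟨(b.1 + 2) % 11, Nat.mod_lt _ (by norm_num)⟩, ⟨16 * c.1 % 23, Nat.mod_lt _ (by norm_num)⟩)) =
        nf x y t (.inr (a, b, c)) := by
      show x ^ (16 * a.1 % 23) * y ^ ((b.1 + 2) % 11) * t * x ^ (16 * c.1 % 23) = _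
      rw [h.xmod (Nat.mod_mod _ 23), h.ymod (Nat.mod_mod _ 11), h.xmod (Nat.mod_mod _ 23)]
      exact h3
    have h5 := hinj h4
    have h6 : (b.1 + 2) % 11 = b.1 := congrArg (fun i : (Fin 23 × Fin 11) ⊕ (Fin 23 × Fin 11 × Fin 23) =>
      match i with | .inl _ => 0 | .inr (_, b, _) => b.1) h5
    have hb := b.2
    omega

end Rel

end Cfsg.Agent.H995.LB
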